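import Cfsg.Agent.H99.C1Defs
import Cfsg.Agent.S0245

/-! Project CO1F, pieces MA and MB: frames in `Sp₆(3)` and `GSp₆(3)`. -/

set_option autoImplicit false

namespace Cfsg.Agent.H10.C1S

open Cfsg.Agent.H99.C1
open Matrix hiding J

/-- `6 × 6` matrices -/
abbrev M6 : Type := Matrix (Fin 3 ⊕ Fin 3) (Fin 3 ⊕ Fin 3) K

/-- the general linear group -/
abbrev Gm : Type := GL (Fin 3 ⊕ Fin 3) K

/-- the matrix of an element of `G` -/
def mt (g : G) : M6 := fromBlocks !![1, g.a, g.c; 0, 1, g.b; 0, 0, 1]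
  !![g.z - g.a * g.y + (g.a * g.b - g.c) * g.x, g.y - g.b * g.x, g.x;
    g.y - g.a * g.w + (g.a * g.b - g.c) * g.v, g.w - g.b * g.v, g.v;
    g.x - g.a * g.v + (g.a * g.b - g.c) * g.t, g.v - g.b * g.t, g.t]
  !![0, 0, 0; 0, 0, 0; 0, 0, 0] !![1, 0, 0; -g.a, 1, 0; g.a * g.b - g.c, -g.b, 1]

/-- the Gram matrix -/
def om : M6 := fromBlocks !![0, 0, 0; 0, 0, 0; 0, 0, 0] !![-1, 0, 0; 0, -1, 0; 0, 0, -1]
  !![1, 0, 0; 0, 1, 0; 0, 0, 1] !![0, 0, 0; 0, 0, 0; 0, 0, 0]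

theorem om_eq : om = Matrix.J (Fin 3) K := by decide

theorem add3 (a₁ a₂ a₃ a₄ a₅ a₆ a₇ a₈ a₉ b₁ b₂ b₃ b₄ b₅ b₆ b₇ b₈ b₉ : K) :
    !![a₁, a₂, a₃; a₄, a₅, a₆; a₇, a₈, a₉] + !![b₁, b₂, b₃; b₄, b₅, b₆; b₇, b₈, b₉] =
      !![a₁ + b₁, a₂ + b₂, a₃ + b₃; a₄ + b₄, a₅ + b₅, a₆ + b₆; a₇ + b₇, a₈ + b₈, a₉ + b₉] := by
  ext i j; fin_cases i <;> fin_cases j <;> rfl

theorem eq3 {a₁ a₂ a₃ a₄ a₅ a₆ a₇ a₈ a₉ b₁ b₂ b₃ b₄ b₅ b₆ b₇ b₈ b₉ : K} (h₁ : a₁ = b₁) (h₂ : a₂ = b₂)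
    (h₃ : a₃ = b₃) (h₄ : a₄ = b₄) (h₅ : a₅ = b₅) (h₆ : a₆ = b₆) (h₇ : a₇ = b₇) (h₈ : a₈ = b₈)
    (h₉ : a₉ = b₉) : !![a₁, a₂, a₃; a₄, a₅, a₆; a₇, a₈, a₉] = !![b₁, b₂, b₃; b₄, b₅, b₆; b₇, b₈, b₉] := by
  subst_vars; rfl

theorem tr3 (a₁ a₂ a₃ a₄ a₅ a₆ a₇ a₈ a₉ : K) :
    !![a₁, a₂, a₃; a₄, a₅, a₆; a₇, a₈, a₉]ᵀ = !![a₁, a₄, a₇; a₂, a₅, a₈; a₃, a₆, a₉] := by
  ext i j; fin_cases i <;> fin_cases j <;> rfl

/-- compares two products of block matrices -/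
macro "blk3" : tactic => `(tactic| (
  simp only [fromBlocks_transpose, tr3, fromBlocks_multiply, mul_fin_three, add3, fromBlocks_inj]
  refine ⟨?_, ?_, ?_, ?_⟩ <;> apply eq3 <;> ring))

theorem mt_mul (g h : G) : mt (g * h) = mt g * mt h := by
  simp only [mt, G.mul_a, G.mul_b, G.mul_c, G.mul_z, G.mul_y, G.mul_x, G.mul_w, G.mul_v, G.mul_t]
  blk3

theorem mt_om (g : G) : mt g * om * (mt g)ᵀ = om := by
  simp only [mt, om]
  blk3

/-- the embedding in the general linear group -/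
def io : G →* Gm := MonoidHom.toHomUnits
  { toFun := mt, map_one' := by decide, map_mul' := mt_mul }

theorem io_val (g : G) : (io g).1 = mt g := rfl

theorem io_inj : Function.Injective io := by
  rw [injective_iff_map_eq_one]
  intro g h
  have e : mt g = 1 := congrArg Units.val h
  have f := fun i j => congrFun (congrFun e i) j
  have h1 : g.a = 0 := f (.inl 0) (.inl 1)
  have h2 : g.b = 0 := f (.inl 1) (.inl 2)
  have h3 : g.c = 0 := f (.inl 0) (.inl 2)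
  have h4 : g.z - g.a * g.y + (g.a * g.b - g.c) * g.x = 0 := f (.inl 0) (.inr 0)
  have h5 : g.y - g.b * g.x = 0 := f (.inl 0) (.inr 1)
  have h6 : g.w - g.b * g.v = 0 := f (.inl 1) (.inr 1)
  simp only [h1, h2, h3, zero_mul, sub_zero, add_zero] at h4 h5 h6
  exact G.ext h1 h2 h3 h4 h5 (f (.inl 0) (.inr 2)) h6 (f (.inl 1) (.inr 2)) (f (.inl 2) (.inr 2))

theorem form_inv {g : Gm} {e : K} (he : e * e = 1) (h : g.1 * om * g.1ᵀ = e • om) :
    (g⁻¹).1 * om * (g⁻¹).1ᵀ = e • om := by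
  have h1 : (g⁻¹).1 * (g.1 * om * g.1ᵀ) * (g⁻¹).1ᵀ = om := by
    rw [← Matrix.mul_assoc, ← Matrix.mul_assoc, Units.inv_mul, Matrix.one_mul, Matrix.mul_assoc,
      ← transpose_mul, Units.inv_mul, transpose_one, Matrix.mul_one]
  rw [h, Matrix.mul_smul, Matrix.smul_mul] at h1
  conv_rhs => rw [← h1, smul_smul, he, one_smul]

theorem form_mul {g h : Gm} {e f : K} (h1 : g.1 * om * g.1ᵀ = e • om) (h2 : h.1 * om * h.1ᵀ = f • om) :
    (g * h).1 * om * (g * h).1ᵀ = (f * e) • om := by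
  rw [Units.val_mul, transpose_mul, ← smul_smul, ← h1, ← Matrix.smul_mul, ← Matrix.mul_smul, ← h2]
  simp only [Matrix.mul_assoc]

/-- `Sp₆(3)` -/
def SA : Subgroup Gm where
  carrier := {g | g.1 * om * g.1ᵀ = (1 : K) • om}
  one_mem' := by simp
  mul_mem' := fun h k => by simpa using form_mul h k
  inv_mem' := fun h => form_inv (mul_one _) h

/-- `GSp₆(3)` -/
def SB : Subgroup Gm where
  carrier := {g | ∃ e : K, e * e = 1 ∧ g.1 * om * g.1ᵀ = e • om}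
  one_mem' := ⟨1, by simp⟩
  mul_mem' := fun ⟨e, he, h⟩ ⟨f, hf, k⟩ =>
    ⟨f * e, by linear_combination e * e * hf + he, form_mul h k⟩
  inv_mem' := fun ⟨e, he, h⟩ => ⟨e, he, form_inv he h⟩

/-- a matrix of order dividing four -/
def un (m : M6) (h : m * (m * m * m) = 1) : Gm := ⟨m, m * m * m, h, by
  rw [← h]; simp only [Matrix.mul_assoc]⟩

/-- block diagonal matrices -/
def dg (n n' : Matrix (Fin 3) (Fin 3) K) : M6 :=
  fromBlocks n !![0, 0, 0; 0, 0, 0; 0, 0, 0] !![0, 0, 0; 0, 0, 0; 0, 0, 0] n'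

def q2 : M6 := dg !![-1, 0, 0; 0, 1, 0; 0, 0, 1] !![-1, 0, 0; 0, 1, 0; 0, 0, 1]
def q3 : M6 := dg !![1, 0, 0; 0, 1, 0; 0, 0, -1] !![1, 0, 0; 0, 1, 0; 0, 0, -1]
def qs : M6 := dg !![1, 0, 0; 0, 1, 0; 0, 0, 1] !![-1, 0, 0; 0, -1, 0; 0, 0, -1]
def r1 : M6 := dg !![0, 1, 0; -1, 0, 0; 0, 0, 1] !![0, 1, 0; -1, 0, 0; 0, 0, 1]
def r2 : M6 := dg !![1, 0, 0; 0, 0, 1; 0, -1, 0] !![1, 0, 0; 0, 0, 1; 0, -1, 0]
def r3 : M6 := fromBlocks !![1, 0, 0; 0, 1, 0; 0, 0, 0] !![0, 0, 0; 0, 0, 0; 0, 0, -1]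
  !![0, 0, 0; 0, 0, 0; 0, 0, 1] !![1, 0, 0; 0, 1, 0; 0, 0, 0]

theorem eqns : True := by
  have := @mt.eq_1
  have := @om.eq_1
  have := @io.eq_1
  have := @SA.eq_1
  have := @SB.eq_1
  have := @un.eq_1
  have := @dg.eq_1
  have := @q2.eq_1
  have := @q3.eq_1
  have := @qs.eq_1
  have := @r1.eq_1
  have := @r2.eq_1
  have := @r3.eq_1
  trivial

theorem c2 (v : G) : q2 * mt v = mt (tor τ2 v) * q2 := by
  simp only [q2, dg, mt, tor_apply, torF, τ2, Units.val_neg, Units.val_one]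
  blk3

theorem c3 (v : G) : q3 * mt v = mt (tor τ3 v) * q3 := by
  simp only [q3, dg, mt, tor_apply, torF, τ3, Units.val_neg, Units.val_one]
  blk3

theorem cs (v : G) : qs * mt v = mt (tor σ v) * qs := by
  simp only [qs, dg, mt, tor_apply, torF, σ, Units.val_neg, Units.val_one]
  blk3

theorem d1 (v : V) : r1 * mt (jv v) = mt (jv ((w1m 0).1 *ᵥ v)) * r1 := by
  have : jv ((w1m 0).1 *ᵥ v) = ⟨0, 0, 0, v 3, -v 1, v 4, v 0, -v 2, v 5⟩ := by
    ext <;> simp [jv, w1m, Matrix.mulVec, dotProduct, Fin.sum_univ_six]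
  rw [this]
  simp only [r1, dg, mt, jv]
  blk3

theorem d2 (v : V) : r2 * mt (jv v) = mt (jv ((w2m 0).1 *ᵥ v)) * r2 := by
  have : jv ((w2m 0).1 *ᵥ v) = ⟨0, 0, 0, v 0, v 2, -v 1, v 5, -v 4, v 3⟩ := by
    ext <;> simp [jv, w2m, Matrix.mulVec, dotProduct, Fin.sum_univ_six]
  rw [this]
  simp only [r2, dg, mt, jv]
  blk3

theorem d3 (v : G) (h : v ∈ E3) : r3 * mt v = mt (w3 v) * r3 := by
  have e : v.t = 0 := h
  simp only [r3, mt, w3, e]
  blk3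

theorem io_mem (g : G) : io g ∈ SA := by
  change mt g * om * (mt g)ᵀ = _
  rw [mt_om, one_smul]

theorem card_SA : Nat.card SA ∣ 9170703360 := by
  have h := Cfsg.Agent.S0245.result (F := K) (q := 3) (ZMod.card 3) 3
  let f : SA →* Matrix.symplecticGroup (Fin 3) K := MonoidHom.mk'
    (fun g => ⟨g.1.1, by
      have : _ = _ := g.2
      rwa [one_smul, om_eq, ← SymplecticGroup.mem_iff] at this⟩) fun _ _ => rfl
  have := Subgroup.card_dvd_of_injective f fun g k e =>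
    Subtype.ext (Units.ext (congrArg Subtype.val e))
  rw [h] at this
  exact this.trans (by decide)

theorem SA_le : SA ≤ SB := fun _ h => ⟨1, mul_one _, h⟩

theorem qs4 : qs * (qs * qs * qs) = 1 := by decide +kernel

theorem qs_mem : (un qs qs4).1 * om * (un qs qs4).1ᵀ = (-1 : K) • om := by decide +kernel

theorem card_SB : Nat.card SB ∣ 2 * 9170703360 := by
  have h : (SA.subgroupOf SB).index ∣ 2 := Subgroup.index_dvd_two_iff.2
    ⟨⟨un qs qs4, -1, by decide, qs_mem⟩, fun ⟨g, e, he, hg⟩ => by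
      have : ∀ e : K, e * e = 1 → e = 1 ∨ e = -1 := by decide
      rcases this e he with rfl | rfl
      · exact Or.inr hg
      · exact Or.inl (by simpa using form_mul hg qs_mem : _ = (1 : K) • om)⟩
  rw [← (SA.subgroupOf SB).index_mul_card, Nat.card_congr (Subgroup.subgroupOfEquivOfLe SA_le).toEquiv]
  exact mul_dvd_mul h card_SA

theorem cj {S : Subgroup Gm} (hS : SA ≤ S) (m : M6) (h : m * (m * m * m) = 1) (hm : un m h ∈ S) :
    ∃ g : S, ∀ x y : G, m * mt x = mt y * m → g * io.codRestrict S (fun g => hS (io_mem g)) x * g⁻¹ =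
      io.codRestrict S (fun g => hS (io_mem g)) y :=
  ⟨⟨un m h, hm⟩, fun _ _ e => mul_inv_eq_iff_eq_mul.2 (Subtype.ext (Units.ext e))⟩

theorem frame {S : Subgroup Gm} (hS : SA ≤ S) (hc : Nat.card S ∣ 2 * 9170703360) :
    Fr 0 (io.codRestrict S fun g => hS (io_mem g)) := by
  have inj : Function.Injective (io.codRestrict S fun g => hS (io_mem g)) :=
    fun x y e => io_inj (congrArg Subtype.val e)
  have m := fun (m : M6) (h : m * (m * m * m) = 1 ∧ m * om * mᵀ = (1 : K) • om) =>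
    cj hS m h.1 (hS h.2)
  obtain ⟨g2, h2⟩ := m q2 (by decide +kernel)
  obtain ⟨g3, h3⟩ := m q3 (by decide +kernel)
  obtain ⟨k1, e1⟩ := m r1 (by decide +kernel)
  obtain ⟨k2, e2⟩ := m r2 (by decide +kernel)
  obtain ⟨k3, e3⟩ := m r3 (by decide +kernel)
  refine ⟨inj, fun h => ?_, ⟨g2, fun v => h2 _ _ (c2 v)⟩, ⟨g3, fun v => h3 _ _ (c3 v)⟩,
    ⟨k1, fun v => e1 _ _ (d1 v)⟩, ⟨k2, fun v => e2 _ _ (d2 v)⟩, ⟨k3, fun v hv => e3 _ _ (d3 v hv)⟩⟩
  rw [← (io.codRestrict S fun g => hS (io_mem g)).range.card_mul_index,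
    ← Nat.card_congr (MonoidHom.ofInjective inj).toEquiv, G.card] at hc
  exact absurd ((mul_dvd_mul_left (3 ^ 9) h).trans hc) (by norm_num)

theorem ma : MAStmt := by
  refine ⟨SA, inferInstance, inferInstance, _, frame le_rfl (card_SA.trans (dvd_mul_left _ _)),
    fun g h => ?_⟩
  have e : g.1.1 * mt (xz 1) = mt (xz (-1)) * g.1.1 :=
    congrArg (fun x : SA => x.1.1) (mul_inv_eq_iff_eq_mul.1 h)
  have k : _ = _ := g.2
  generalize g.1.1 = A at e k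
  have f := fun j => congrFun (congrFun e (.inl 0)) j
  have h1 := f (.inl 0)
  have h2 := f (.inl 1)
  have h3 := f (.inl 2)
  have h4 := f (.inr 0)
  have h5 := congrFun (congrFun k (.inl 0)) (.inr 0)
  have h6 := f (.inr 1)
  have h7 := f (.inr 2)
  simp [mt, xz, om, Matrix.mul_apply, Fintype.sum_sum_type, Fin.sum_univ_three] at h1 h2 h3 h4 h5 h6 h7
  have : ∀ x : K, x * x ≠ -1 := by decide
  refine this (A (.inr 0) (.inr 0)) ?_
  simp only [h1, h2, h3, h6, h7] at h5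
  linear_combination h5 + A (.inr 0) (.inr 0) * h4

theorem mb : MBStmt := by
  obtain ⟨g, h⟩ := cj SA_le qs qs4 ⟨-1, by decide, qs_mem⟩
  exact ⟨SB, inferInstance, inferInstance, _, frame SA_le card_SB, g, fun v => h _ _ (cs v)⟩

end Cfsg.Agent.H10.C1S
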