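import Cfsg.Agent.H99.C1Defs

/-! Project CO1F, piece RIG3: rigidity of the reflection in the automizer of `E3`. -/

set_option autoImplicit false

namespace Cfsg.Agent.H10.C1R

open Cfsg.Agent.H97 Cfsg.Agent.H96.VB Cfsg.Agent.H96.CP Cfsg.Agent.H99.C1 Subgroup
open scoped commutatorElement

theorem invol {X : Type*} [Group X] {x t : X} {m : ℕ} (ht : t * t = 1) (h : x * t * (x * t) = 1)
    (hm : x ^ (m + m + 1) = 1) : x ^ m * (x * t) * (x ^ m)⁻¹ = t := by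
  have ti : t⁻¹ = t := inv_eq_of_mul_eq_one_right ht
  have e : t * x⁻¹ * t⁻¹ = x := by
    have : x = (t * (x * t))⁻¹ := eq_inv_of_mul_eq_one_left (by simpa [mul_assoc] using h)
    calc t * x⁻¹ * t⁻¹ = t⁻¹ * x⁻¹ * t⁻¹ := by rw [ti]
      _ = (t * (x * t))⁻¹ := by group
      _ = x := this.symm
  have e2 : t * (x ^ m)⁻¹ = x ^ m * t := by
    have : (t * x⁻¹ * t⁻¹) ^ m = x ^ m := by rw [e]
    rw [conj_pow, inv_pow] at this
    exact mul_inv_eq_iff_eq_mul.1 this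
  rw [mul_assoc, mul_assoc, e2, ← mul_assoc, ← mul_assoc, ← pow_succ, ← pow_add,
    show m + 1 + m = m + m + 1 by ring, hm, one_mul]

theorem cj_pow {α : MulAut E3} {s : G} (h : Cj α s) (m : ℕ) : Cj (α ^ m) (s ^ m) := by
  induction m with
  | zero => intro x _; simp
  | succ m ih => rw [pow_succ, pow_succ]; exact ih.mul h

theorem tor3 (g : G) : tor τ3 g = ⟨g.a, -g.b, -g.c, g.z, g.y, -g.x, g.w, -g.v, g.t⟩ := by
  ext <;> simp [tor_apply, torF, τ3]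

theorem exists_tau : ∃ τ : MulAut E3, ∀ g ∈ E3, ext τ g = tor τ3 g :=
  ⟨{ toFun := fun g => ⟨tor τ3 g, by rw [tor3]; exact g.2⟩
     invFun := fun g => ⟨tor τ3 g, by rw [tor3]; exact g.2⟩
     left_inv := fun g => Subtype.ext (by simp only [tor3, neg_neg])
     right_inv := fun g => Subtype.ext (by simp only [tor3, neg_neg])
     map_mul' := fun g h => Subtype.ext (map_mul (tor τ3) g.1 h.1) },
   fun g hg => by rw [ext_apply _ hg]; rfl⟩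

theorem fixA : ∀ b c x v : K, -b = b → -c = c → -x = x → -v = v →
    b = 0 ∧ c = 0 ∧ x = 0 ∧ v = 0 := by decide

theorem invB : ∀ c z y x w : K, (⟨0, 0, c, z, y, x, w, 1, 0⟩ : G)⁻¹ = ⟨0, -0, -c, z, y, -x, w, -1, 0⟩ →
    z = c * x ∧ y = -c ∧ w = 0 := by decide +kernel

theorem invV : ∀ c z y x w : K, (⟨0, -1, c, z, y, x, w, 0, 0⟩ : G)⁻¹ = ⟨0, - -1, -c, z, y, -x, w, -0, 0⟩ →
    z = c * x ∧ y = x ∧ w = 0 := by decide +kernel

/-- the relations used -/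
def Rel3 (A B V : G) : Prop := A * A * A = 1 ∧ A * B * (A * B) * (A * B) = 1 ∧
  A * V * (A * V) * (A * V) = 1 ∧ ⁅⁅A, B⁆, V⁆ = ⁅B, ⁅A, V⁆⁆

theorem eqns : True := by
  have := @Rel3.eq_1
  trivial

theorem core0 : ∀ z y w : K, let A : G := ⟨1, 0, 0, z, y, 0, w, 0, 0⟩
    A * A * A = 1 → ∀ c x : K, let B : G := ⟨0, 0, c, c * x, -c, x, 0, 1, 0⟩
    A * B * (A * B) * (A * B) = 1 → ∀ c' x' : K, let V : G := ⟨0, -1, c', c' * x', x', x', 0, 0, 0⟩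
    A * V * (A * V) * (A * V) = 1 → ⁅⁅A, B⁆, V⁆ = ⁅B, ⁅A, V⁆⁆ → ∃ a y' w' : K,
      let s : G := ⟨a, 0, 0, 0, y', 0, w', 0, 0⟩
      s⁻¹ * A * s⁻¹⁻¹ = w3 (xa 1) ∧ s⁻¹ * B * s⁻¹⁻¹ = w3 (xb 1) ∧ s⁻¹ * V * s⁻¹⁻¹ = w3 (xv 1) := by
  decide +kernel

theorem rel0 : Rel3 (xa 1) (xb 1) (xv 1) := by unfold Rel3; decide +kernel

theorem Rel3.map (n : MulAut E3) {A B V : G} (hA : A ∈ E3) (hB : B ∈ E3) (hV : V ∈ E3) (h : Rel3 A B V) :
    Rel3 (ext n A) (ext n B) (ext n V) := by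
  have cm : ∀ x ∈ E3, ∀ y ∈ E3, ⁅x, y⁆ ∈ E3 := fun x hx y hy =>
    mul_mem (mul_mem (mul_mem hx hy) (inv_mem hx)) (inv_mem hy)
  have cu : ∀ x ∈ E3, x * x * x = 1 → ext n x * ext n x * ext n x = 1 := fun x hx e => by
    rw [← ext_map_mul n hx hx, ← ext_map_mul n (mul_mem hx hx) hx, e, ext_map_one]
  obtain ⟨h1, h2, h3, h4⟩ := h
  refine ⟨cu _ hA h1, ?_, ?_, ?_⟩
  · rw [← ext_map_mul n hA hB]; exact cu _ (mul_mem hA hB) h2
  · rw [← ext_map_mul n hA hV]; exact cu _ (mul_mem hA hV) h3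
  · rw [← ext_map_comm n hA hB, ← ext_map_comm n hA hV, ← ext_map_comm n (cm _ hA _ hB) hV,
      ← ext_map_comm n hB (cm _ hA _ hV), h4]

/-- the case that `n` commutes with `τ3` -/
theorem core (n : MulAut E3) (hn : Sw3 n) (hc : ∀ g ∈ E3, ext n (tor τ3 g) = tor τ3 (ext n g)) :
    ∃ s ∈ E3, s⁻¹ * ext n (xa 1) * s⁻¹⁻¹ = w3 (xa 1) ∧ s⁻¹ * ext n (xb 1) * s⁻¹⁻¹ = w3 (xb 1) ∧
      s⁻¹ * ext n (xv 1) * s⁻¹⁻¹ = w3 (xv 1) := by
  have hA : xa 1 ∈ E3 := rfl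
  have hB : xb 1 ∈ E3 := rfl
  have hV : xv 1 ∈ E3 := rfl
  obtain ⟨r1, r2, r3, r4⟩ := rel0.map n hA hB hV
  have a1 := hn.1 _ hA
  have a2 := ext_mem n hA
  have a3 := hc _ hA
  have b1 := hn.1 _ hB
  have b2 := ext_mem n hB
  have b3 := hc _ hB
  have b4 := hn.2 (xb 1) ⟨rfl, rfl⟩
  have v1 := hn.1 _ hV
  have v2 := ext_mem n hV
  have v3 := hc _ hV
  have v4 := hn.2 (xv 1) ⟨rfl, rfl⟩
  rw [show tor τ3 (xa 1) = xa 1 by decide, tor3] at a3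
  rw [show tor τ3 (xb 1) = (xb 1)⁻¹ by decide, ext_map_inv n hB, tor3] at b3
  rw [show tor τ3 (xv 1) = (xv 1)⁻¹ by decide, ext_map_inv n hV, tor3] at v3
  generalize ext n (xa 1) = A at *
  generalize ext n (xb 1) = B at *
  generalize ext n (xv 1) = V at *
  obtain ⟨a, b, c, z, y, x, w, v, t⟩ := A
  obtain ⟨a', b', c', z', y', x', w', v', t'⟩ := B
  obtain ⟨a'', b'', c'', z'', y'', x'', w'', v'', t''⟩ := V
  obtain rfl : a = 1 := a1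
  obtain rfl : t = 0 := a2
  obtain ⟨rfl, rfl, rfl, rfl⟩ := fixA b c x v (congrArg G.b a3).symm (congrArg G.c a3).symm
    (congrArg G.x a3).symm (congrArg G.v a3).symm
  obtain rfl : a' = 0 := b1
  obtain rfl : t' = 0 := b2
  obtain rfl : b' = 0 := b4.1
  obtain rfl : v' = 1 := b4.2
  obtain ⟨rfl, rfl, rfl⟩ := invB c' z' y' x' w' b3
  obtain rfl : a'' = 0 := v1
  obtain rfl : t'' = 0 := v2
  obtain rfl : b'' = -1 := v4.1
  obtain rfl : v'' = 0 := v4.2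
  obtain ⟨rfl, rfl, rfl⟩ := invV c'' z'' y'' x'' w'' v3
  obtain ⟨p, q, r, k⟩ := core0 z y w r1 c' x' r2 c'' y'' r3 r4
  exact ⟨⟨p, 0, 0, 0, q, 0, r, 0, 0⟩, rfl, k⟩

theorem rig3 (gen : Gen) : Rig3Stmt := by
  rintro C A hA hK hτ ⟨n, hn, sw⟩
  obtain ⟨τ, eτ⟩ := exists_tau
  have τA : τ ∈ A := hA.res _ hτ τ eτ
  have τ2 : τ * τ = 1 := aut_eq_one fun g hg => by
    rw [ext_mul, eτ _ (ext_mem τ hg), eτ g hg]; simp only [tor3, neg_neg]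
  have i1 : ∀ g ∈ E3, (ext n⁻¹ g).a = g.a := fun g hg => by
    have := sw.1 _ (ext_mem n⁻¹ hg)
    rw [ext_ext_inv] at this; exact this.symm
  have i2 : ∀ g ∈ R, (ext n⁻¹ g).b = g.v ∧ (ext n⁻¹ g).v = -g.b := fun g hg => by
    have := sw.2 (ext n⁻¹ g) ⟨(i1 g hg.2).trans hg.1, ext_mem n⁻¹ hg.2⟩
    rw [ext_ext_inv] at this
    exact ⟨this.2.symm, by rw [this.1, neg_neg]⟩
  have t1 : ∀ g ∈ E3, (ext τ g).a = g.a := fun g hg => by rw [eτ g hg, tor3]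
  have t2 : ∀ g ∈ E3, (ext τ g).b = -g.b ∧ (ext τ g).v = -g.v := fun g hg => by
    rw [eτ g hg, tor3]; exact ⟨rfl, rfl⟩
  have kA : n * τ * n⁻¹ * τ ∈ A := mul_mem (mul_mem (mul_mem hn τA) (inv_mem hn)) τA
  obtain ⟨e, he, ke⟩ := hK _ kA (fun g hg => by
    have m1 := ext_mem τ hg
    have m2 := ext_mem n⁻¹ m1
    rw [ext_mul, ext_mul, ext_mul, sw.1 _ (ext_mem τ m2), t1 _ m2, i1 _ m1, t1 _ hg]) (fun g hg => by
    have m1 : ext τ g ∈ R := ⟨(t1 g hg.2).trans hg.1, ext_mem τ hg.2⟩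
    have m2 : ext n⁻¹ (ext τ g) ∈ R := ⟨(i1 _ m1.2).trans m1.1, ext_mem _ m1.2⟩
    have m3 : ext τ (ext n⁻¹ (ext τ g)) ∈ R := ⟨(t1 _ m2.2).trans m2.1, ext_mem _ m2.2⟩
    rw [ext_mul, ext_mul, ext_mul, (sw.2 _ m3).1, (sw.2 _ m3).2, (t2 _ m2.2).1, (t2 _ m2.2).2,
      (i2 _ m1).1, (i2 _ m1).2, (t2 _ hg.2).1, (t2 _ hg.2).2]
    simp)
  have e0 : (n * τ * n⁻¹ * τ) * τ = n * τ * n⁻¹ := by rw [mul_assoc, τ2, mul_one]
  obtain ⟨m, hm⟩ : ∃ m, m + m + 1 = Nat.card G := ⟨9841, by rw [G.card]; norm_num⟩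
  generalize n * τ * n⁻¹ * τ = k at kA ke e0
  have k1 : k ^ (m + m + 1) = 1 := aut_eq_one fun g hg => by
    rw [cj_pow ke _ g hg, hm, pow_card_eq_one']; simp
  have e1 := invol (m := m) τ2 (by
    rw [e0, ← pow_two, conj_pow, pow_two, τ2, mul_one, mul_inv_cancel]) k1
  have km := cj_pow ke m
  have hem : e ^ m ∈ E3 := pow_mem he m
  have e2 : k ^ m * n * τ = τ * (k ^ m * n) := by
    rw [e0] at e1
    conv_rhs => rw [← e1]
    group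
  have nA : k ^ m * n ∈ A := mul_mem (pow_mem kA m) hn
  have sw1 : Sw3 (k ^ m * n) := by
    refine ⟨fun g hg => ?_, fun g hg => ?_⟩
    · rw [ext_mul, km _ (ext_mem n hg), ← sw.1 g hg]; simp
    · have h1 : (ext n g).a = 0 := (sw.1 g hg.2).trans hg.1
      have h2 : (ext n g).t = 0 := ext_mem n hg.2
      have h3 : (e ^ m).t = 0 := hem
      rw [ext_mul, km _ (ext_mem n hg.2), ← (sw.2 g hg).1, ← (sw.2 g hg).2]
      constructor <;> simp [h2, h3]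
  generalize k ^ m * n = n1 at e2 nA sw1
  obtain ⟨s, hs, c1, c2, c3⟩ := core n1 sw1 fun g hg => by
    rw [← eτ g hg, ← eτ _ (ext_mem n1 hg), ← ext_mul, ← ext_mul, e2]
  obtain ⟨c, hc⟩ := exists_cj (P := E3) (le_normalizer hs)
  have ap : ∀ g ∈ E3, ext (c⁻¹ * n1) g = s⁻¹ * ext n1 g * s⁻¹⁻¹ := fun g hg => by
    rw [ext_mul, hc.inv _ (ext_mem n1 hg)]
  refine ⟨c⁻¹ * n1, mul_mem (inv_mem (hA.cj c s hc)) nA, fun g hg => ?_⟩
  have w1 : w3 1 = 1 := by decide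
  let H : Subgroup G :=
    { carrier := {g | g ∈ E3 ∧ ext (c⁻¹ * n1) g = w3 g}
      one_mem' := ⟨one_mem _, by rw [ext_map_one, w1]⟩
      mul_mem' := fun h k => ⟨mul_mem h.1 k.1, by
        rw [ext_map_mul _ h.1 k.1, w3_mul h.1 k.1, h.2, k.2]⟩
      inv_mem' := fun {x} h => ⟨inv_mem h.1, by
        rw [ext_map_inv _ h.1, h.2]
        exact inv_eq_of_mul_eq_one_right (by rw [← w3_mul h.1 (inv_mem h.1), mul_inv_cancel, w1])⟩ }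
  exact (gen.e3 H ⟨rfl, (ap _ rfl).trans c1⟩ ⟨rfl, (ap _ rfl).trans c2⟩ ⟨rfl, (ap _ rfl).trans c3⟩ hg).2

end Cfsg.Agent.H10.C1R
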