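import Mathlib
import Cfsg.Agent.H50.E72Defs

/-! Project E72, piece WT: decomposition into weight spaces. -/

set_option autoImplicit false

namespace Cfsg.Agent.H10.E72Wt

open Module Multiplicative Cfsg.Agent.H50.E72
open scoped Matrix

theorem gen {F V A B : Type} [Field F] [AddCommGroup V] [Module F V] [FiniteDimensional F V]
    [AddCommGroup A] [Fintype A] [DecidableEq A] [Fintype B] (T : Multiplicative A →* End F V)
    (c : B → A → F) (mul : ∀ χ e e', c χ (e + e') = c χ e * c χ e')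
    (sum : ∀ e, ∑ χ, c χ e = if e = 0 then (Fintype.card A : F) else 0)
    (hA : (Fintype.card A : F) ≠ 0) (inj : ∀ χ χ', c χ = c χ' → χ = χ') (W : Submodule F V)
    (hW : ∀ e, ∀ v ∈ W, T e v ∈ W) (S : Finset A) (a : A → F) (P : B → Prop) [DecidablePred P]
    (hP : ∀ χ, P χ ↔ ∀ e ∈ S, c χ e = a e) :
    finrank F (W ⊓ ⨅ e ∈ S, (T (ofAdd e)).eigenspace (a e) : Submodule F V) =
      ∑ χ with P χ, finrank F (W ⊓ ⨅ e, (T (ofAdd e)).eigenspace (c χ e) : Submodule F V) := by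
  obtain ⟨p, hp⟩ : ∃ p : B → End F V,
      ∀ χ v, p χ v = (Fintype.card A : F)⁻¹ • ∑ e, c χ (-e) • T (ofAdd e) v :=
    ⟨fun χ => (Fintype.card A : F)⁻¹ • ∑ e, c χ (-e) • T (ofAdd e), fun χ v => by
      simp [LinearMap.sum_apply]⟩
  have tt : ∀ e e' v, T (ofAdd e) (T (ofAdd e') v) = T (ofAdd (e + e')) v := fun e e' v => by
    rw [ofAdd_add, map_mul, End.mul_apply]
  have h1 : ∀ χ e v, T (ofAdd e) (p χ v) = c χ e • p χ v := fun χ e v => by
    rw [hp, map_smul, map_sum, smul_comm, Finset.smul_sum (r := c χ e),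
      ← Equiv.sum_comp (Equiv.addLeft e) fun e' => c χ e • c χ (-e') • T (ofAdd e') v]
    refine congrArg _ (Finset.sum_congr rfl fun e' _ => ?_)
    rw [map_smul, tt, smul_smul, ← mul, Equiv.coe_addLeft, neg_add_rev, add_comm e (_ + _),
      neg_add_cancel_right]
  have h2 : ∀ v, ∑ χ, p χ v = v := fun v => by
    simp only [hp]
    rw [← Finset.smul_sum, Finset.sum_comm]
    simp only [← Finset.sum_smul, sum, neg_eq_zero, ite_smul, zero_smul, Finset.sum_ite_eq',
      Finset.mem_univ, if_true, ofAdd_zero, map_one, End.one_apply]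
    rw [inv_smul_smul₀ hA]
  have h3 : ∀ χ e v t, T (ofAdd e) v = t • v → c χ e ≠ t → p χ v = 0 := fun χ e v t h hne => by
    have : T (ofAdd e) (p χ v) = p χ (T (ofAdd e) v) := by
      simp only [hp, map_smul, map_sum, tt, add_comm e]
    rw [h1, h, map_smul, ← sub_eq_zero, ← sub_smul, smul_eq_zero, sub_eq_zero] at this
    exact this.resolve_left hne
  have h4 : ∀ χ, ∀ v ∈ W, p χ v ∈ W := fun χ v hv => by
    rw [hp]
    exact W.smul_mem _ (W.sum_mem fun e _ => W.smul_mem _ (hW _ v hv))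
  have h5 : ∀ χ χ' v, (∀ e, T (ofAdd e) v = c χ' e • v) → χ ≠ χ' → p χ v = 0 := fun χ χ' v h ne => by
    obtain ⟨e, he⟩ := Function.ne_iff.1 (mt (inj χ χ') ne)
    exact h3 χ e v _ (h e) he
  rw [Finset.sum_subtype (Finset.univ.filter P) (p := P) (by simp), ← finrank_pi_fintype]
  refine LinearEquiv.finrank_eq (LinearEquiv.ofBijective (LinearMap.pi fun χ : {χ // P χ} =>
    (p χ ∘ₗ (W ⊓ ⨅ e ∈ S, (T (ofAdd e)).eigenspace (a e) : Submodule F V).subtype).codRestrict
      (W ⊓ ⨅ e, (T (ofAdd e)).eigenspace (c χ e)) fun v => Submodule.mem_inf.2 ⟨h4 _ _ v.2.1,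
        (Submodule.mem_iInf _).2 fun e => End.mem_eigenspace_iff.2 (h1 _ e _)⟩) ⟨?_, fun w => ?_⟩)
  · refine (injective_iff_map_eq_zero _).2 fun v hv => Subtype.ext ?_
    rw [← h2 v.1]
    refine Finset.sum_eq_zero fun χ _ => ?_
    by_cases h : P χ
    · exact congrArg Subtype.val (congrFun hv ⟨χ, h⟩)
    · rw [hP] at h
      push Not at h
      obtain ⟨e, he, h⟩ := h
      have := v.2.2
      simp only [SetLike.mem_coe, Submodule.mem_iInf, End.mem_eigenspace_iff] at this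
      exact h3 χ e _ _ (this e he) h
  · have k : ∀ χ e, T (ofAdd e) (w χ).1 = c χ e • (w χ).1 := fun χ => by
      have := (w χ).2.2
      simpa only [SetLike.mem_coe, Submodule.mem_iInf, End.mem_eigenspace_iff] using this
    refine ⟨⟨∑ χ, (w χ).1, Submodule.sum_mem _ fun χ _ => ⟨(w χ).2.1, ?_⟩⟩,
      funext fun χ => Subtype.ext ?_⟩
    · simp only [SetLike.mem_coe, Submodule.mem_iInf, End.mem_eigenspace_iff]
      exact fun e he => (hP _).1 χ.2 e he ▸ k χ e
    · change p χ (∑ χ, (w χ).1) = _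
      rw [map_sum, Finset.sum_eq_single χ (fun χ' _ ne => h5 _ χ' _ (k χ')
        fun e => ne (Subtype.ext e).symm) (by simp)]
      conv_rhs => rw [← h2 (w χ).1]
      exact (Finset.sum_eq_single χ.1 (fun χ' _ ne => h5 _ _ _ (k χ) ne) (by simp)).symm

theorem wts : WtStmt := by
  intro n _ _ π k s _ ζ x W hζ hW S a
  have inj : ∀ i j : ZMod s, ((ζ ^ i.val : Kˣ) : K) = (ζ ^ j.val : Kˣ) → i = j := fun i j e =>
    ZMod.val_injective s (hζ.pow_inj i.val_lt j.val_lt (Units.ext e))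
  have mul : ∀ i j : ZMod s, ((ζ ^ (i + j).val : Kˣ) : K) = (ζ ^ i.val : Kˣ) * (ζ ^ j.val : Kˣ) :=
    fun i j => by rw [← Units.val_mul, ← pow_add, ZMod.val_add, ← pow_eq_pow_mod _ hζ.pow_eq_one]
  have := (IsPrimitiveRoot.coe_units_iff.2 hζ).neZero'
  refine gen ((act π).comp x) (fun χ e : Fin k → ZMod s => ((ζ ^ (χ ⬝ᵥ e).val : Kˣ) : K))
    (fun χ e e' => by rw [dotProduct_add, mul]) (fun e => ?_) ?_ (fun χ χ' h => funext fun i => ?_)
    W hW S _ _ fun χ => forall₂_congr fun e _ => ⟨fun h => by rw [h], inj _ _⟩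
  · split_ifs with h
    · simp [h]
    · obtain ⟨i, hi⟩ := Function.ne_iff.1 h
      have e1 := Equiv.sum_comp (Equiv.addLeft (Pi.single i 1))
        fun χ : Fin k → ZMod s => ((ζ ^ (χ ⬝ᵥ e).val : Kˣ) : K)
      simp only [Equiv.coe_addLeft, add_dotProduct, mul, single_dotProduct, one_mul] at e1
      rw [← Finset.mul_sum, mul_left_eq_self₀] at e1
      exact e1.resolve_left fun e2 => hi (inj _ 0 (by rw [e2]; simp))
  · rw [Fintype.card_fun, ZMod.card, Nat.cast_pow]
    exact pow_ne_zero _ (NeZero.ne _)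
  · simpa using inj _ _ (congrFun h (Pi.single i 1))

end Cfsg.Agent.H10.E72Wt
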