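import Cfsg.Agent.H6.E82Defs

/-! The twisted centraliser of a regular element of order `65`. -/

set_option autoImplicit false

namespace Cfsg.Agent.H10.E82Twa

open Equiv Cfsg.Lie H37 H40 H34 H29 Module H82 H50.SL2S Finset Cfsg.Agent.H6.E82
open scoped Matrix MatrixGroups

theorem tw_fix (fr : FrameStmt) (na : NactStmt) {ζ : Kˣ} {s : ℕ} (hζ : IsPrimitiveRoot ζ s)
    {t : GK} {f : Rt → ℤ} (hl : Lab C8 ζ t f) (l : List Ix)
    (h : ∀ r, (f (C8.S.word l r) : ZMod s) = 2 * f r) : nn l * φ t * (nn l)⁻¹ = t := by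
  have e : (nn l)⁻¹ * t * nn l = t ^ 2 :=
    ((hl.conj (na l).1).eq_iff (hl.pow 2)).2 fun r => (zpow_eq_iff hζ).2 (by
      rw [(na l).2.1, h]; push_cast; rfl)
  rw [fr.2.2.2.2.2 t hl.mem_H, ← e]; group

theorem lab_comm {ζ : Kˣ} {t g : GK} {f f' : Rt → ℤ} (hl : Lab C8 ζ t f) (hl' : Lab C8 ζ g f') :
    Commute g t :=
  ((hl'.mul hl).eq_iff (hl.mul hl')).2 fun r => by rw [add_comm]

theorem twa (brb : BrbStmt) (mu : MuStmt) (fr : FrameStmt) (na : NactStmt) (da : DatAStmt)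
    (db : DatBStmt) : TwaStmt := by
  intro i hi ζ t hζ hl
  have hA := (da i (by omega)).2.1 hi
  have hB := db i (by omega)
  have hc : ∀ v, act t v = v → v ∈ Cart := fun v hv r => by
    have := (mu.2.1 ζ t _ hl v).2 r
    rw [hv] at this
    by_contra h0
    have h1 : ζ ^ vN C8 (rep i) r = ζ ^ (0 : ℤ) := by
      rw [zpow_zero]; exact Units.ext ((mul_eq_right₀ h0).1 this.symm)
    exact hA.1 r (((zpow_eq_iff hζ).1 h1).trans Int.cast_zero)
  refine ⟨tw_fix fr na hζ hl _ hB.1, fun v hv => ?_, fun A hA' _ => ?_⟩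
  · rw [b3, brb.2.2.1 _ (hc _ (hv 0)) _ (hc _ (hv 1))]
    simp only [map_zero, LinearMap.zero_apply]
  obtain ⟨g, hg⟩ : ∃ g, Lab C8 ζ g fun r => 13 * vN C8 (g5 i) r :=
    exists_lab8 hζ ((isAdd_vN C8 _).mul 13)
  refine ⟨g, tw_fix fr na hζ hg _ fun r => ?_, lab_comm hl hg, fun h => hA.2 ?_, fun v hv => ?_⟩
  · have := hB.2.1 hi r
    generalize vN C8 (g5 i) (C8.S.word (wl i) r) = a at this ⊢
    generalize vN C8 (g5 i) r = b at this ⊢
    have h1 : (5 : ℤ) ∣ 2 * b - a := by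
      have := (ZMod.intCast_eq_intCast_iff_dvd_sub a (2 * b) 5).1 (by push_cast; exact this)
      exact_mod_cast this
    have h2 := (ZMod.intCast_eq_intCast_iff_dvd_sub (13 * a) (2 * (13 * b)) 65).2 (by
      push_cast; omega)
    rw [h2]; push_cast; rfl
  · obtain ⟨k, hk⟩ := (isOfFinOrder_iff_pow_eq_one.2
      ⟨65, by norm_num, hl.pow_eq_one hζ⟩).mem_powers_iff_mem_zpowers.2 h
    refine ⟨k, fun r => ?_⟩
    have := (zpow_eq_iff hζ).1 ((hg.eq_iff (hl.pow k)).1 hk.symm r)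
    rw [this]; push_cast; rfl
  · have h0 := hc v (hA' v hv).2
    funext j
    rcases j with j | r
    · exact (mu.2.1 ζ g _ hg v).1 j
    · rw [(mu.2.1 ζ g _ hg v).2 r, h0 r, mul_zero]

end Cfsg.Agent.H10.E82Twa
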