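import Cfsg.Agent.H6.E82Defs

/-! A bound for the dimension of the space of cocycles along a composition series. -/

set_option autoImplicit false

namespace Cfsg.Agent.H10.E82Z1

open Equiv Cfsg.Lie H37 H40 H34 H29 Module H82 H50.SL2S Finset Cfsg.Agent.H6.E82
open scoped Matrix MatrixGroups

theorem rank_le {k A B : Type*} [Field k] [AddCommGroup A] [Module k A] [AddCommGroup B]
    [Module k B] [FiniteDimensional k A] [FiniteDimensional k B] (f : A →ₗ[k] B)
    {S S' : Submodule k A} {T : Submodule k B} (h1 : ∀ a ∈ S, f a ∈ T)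
    (h2 : ∀ a ∈ S, f a = 0 → a ∈ S') : finrank k S ≤ finrank k T + finrank k S' := by
  rw [← (f.domRestrict S).finrank_range_add_finrank_ker,
    ← Submodule.finrank_map_subtype_eq S (LinearMap.ker _)]
  refine add_le_add (Submodule.finrank_mono ?_) (Submodule.finrank_mono ?_)
  · rintro _ ⟨a, rfl⟩; exact h1 a a.2
  · rintro _ ⟨a, ha, rfl⟩; exact h2 a a.2 ha

theorem z1 (coc : CocStmt) : Z1Stmt := by
  intro p W _ _ _ ρ U L h
  induction h with
  | nil =>
    rw [show Zc ρ ⊥ = ⊥ from (Submodule.eq_bot_iff _).2 fun δ hδ => funext fun g => hδ.1 g,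
      finrank_bot]
    exact Nat.zero_le _
  | @cons U U' L r _ hs ih =>
    obtain ⟨hr, -, -, Φ, h1, h2, h3⟩ := hs
    rw [List.map_cons, List.sum_cons]
    refine (rank_le (Φ.compLeft SL) (S := Zc ρ U') (T := Zc reg (SP p r)) (S' := Zc ρ U)
      (fun δ hδ => ⟨fun g => ?_, fun g h => ?_, fun s hs => ?_⟩)
      fun δ hδ h0 => ⟨fun g => (h3 _ (hδ.1 g)).1 (congrFun h0 g), hδ.2⟩).trans
      (add_le_add (coc p r hr) ih)
    · rw [← h2]; exact Submodule.mem_map_of_mem (hδ.1 g)
    · show Φ (δ (g * h)) = Φ (δ g) + reg g (Φ (δ h))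
      rw [hδ.2.1, map_add, h1 g _ (hδ.1 h)]
    · show Φ (δ (hh s hs)) = 0
      rw [hδ.2.2, map_zero]

end Cfsg.Agent.H10.E82Z1
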