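import Mathlib
import Cfsg.Agent.H50.E83Defs

/-! A lower bound for the fixed space of an involution of `N` and of torus elements. -/

set_option autoImplicit false

namespace Cfsg.Agent.H10.E83Lb

open Equiv Cfsg.Lie Cfsg.Agent.H37 Cfsg.Agent.H40 Cfsg.Agent.H34 Cfsg.Agent.H29 Module
open Cfsg.Agent.H50.E83
open scoped Matrix

/-- The torus fixes the Cartan subalgebra pointwise. -/
theorem act_H_cart {z : GK} (hz : z ∈ P8.H) {v : V} (hv : v ∈ Cart) : act z v = v := by
  obtain ⟨c, rfl⟩ := Cert.mem_H_iff.1 hz
  have : ((C8.tg K c).1.1 : Matrix chevE8.Idx chevE8.Idx K) =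
      chevE8.charDiag K (torChar chevE8 c) := rfl
  have hv' : ∀ r, v (Sum.inr r) = 0 := hv
  funext j
  rcases j with j | j <;>
    simp only [act_apply, this, ChevalleyDatum.charDiag, Matrix.mulVec_diagonal, Sum.elim_inl,
      Sum.elim_inr, one_mul, hv', mul_zero]

theorem act_act (g g' : GK) (v : V) : act g (act g' v) = act (g * g') v := by
  rw [map_mul, Module.End.mul_apply]

theorem eV_inr (r s : Rt) : eV chevE8 K r (Sum.inr s) = if s = r then 1 else 0 := by
  rw [eV_apply_inr]
  exact if_congr Fin.ext_iff.symm rfl rfl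

theorem lb (hn : NactStmt) : LbStmt := by
  classical
  intro n hN h2 Z S hZ hc hS hν
  obtain ⟨⟨c, hcn⟩, -⟩ := hn n hN
  let W : Submodule K V := eig n 1 ⊓ Cart
  let b : S → V := fun r => eV chevE8 K r.1 + act n (eV chevE8 K r.1)
  let L : ((S → K) × W) →ₗ[K] V := LinearMap.coprod (Fintype.linearCombination K b) W.subtype
  have hb : ∀ r, b r ∈ Fix (insert n Z) := by
    intro r
    rw [mem_Fix]
    rintro g (rfl | hg)
    · simp only [b, map_add]
      rw [act_act, h2, map_one, Module.End.one_apply, add_comm]
    · have h1 : act g (eV chevE8 K r.1) = eV chevE8 K r.1 := mem_Fix.1 (hS r.1 r.2) g hg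
      simp only [b, map_add]
      rw [act_act, (hc g hg).eq, ← act_act, h1]
  have hW : ∀ v : W, v.1 ∈ Fix (insert n Z) := by
    intro v
    rw [mem_Fix]
    rintro g (rfl | hg)
    · have := mem_eig.1 v.2.1
      rwa [one_smul] at this
    · exact act_H_cart (hZ g hg) v.2.2
  have hL : ∀ x, L x ∈ Fix (insert n Z) := by
    intro x
    simp only [L, LinearMap.coprod_apply, Fintype.linearCombination_apply, Submodule.subtype_apply]
    exact add_mem (Submodule.sum_mem _ fun r _ => Submodule.smul_mem _ _ (hb r)) (hW x.2)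
  have hbs : ∀ r s : S, b r (Sum.inr s.1) = if s = r then 1 else 0 := by
    intro r s
    have h1 : s.1 ≠ P8.ν n r.1 := fun h => hν r.1 r.2 (h ▸ s.2)
    simp only [b, hcn, Pi.add_apply, Pi.smul_apply, eV_inr, if_neg h1, smul_zero, add_zero]
    exact if_congr Subtype.ext_iff.symm rfl rfl
  have hi : Function.Injective L := by
    rw [injective_iff_map_eq_zero]
    rintro ⟨a, v⟩ h
    simp only [L, LinearMap.coprod_apply, Fintype.linearCombination_apply,
      Submodule.subtype_apply] at h
    have ha : a = 0 := by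
      funext s
      have h1 := congrFun h (Sum.inr s.1)
      have h3 : v.1 (Sum.inr s.1) = 0 := v.2.2 s.1
      simp only [Pi.add_apply, Finset.sum_apply, Pi.smul_apply, hbs, h3, add_zero, smul_eq_mul,
        mul_ite, mul_one, mul_zero, Finset.sum_ite_eq, Finset.mem_univ, if_true,
        Pi.zero_apply] at h1
      exact h1
    subst ha
    simp only [Pi.zero_apply, zero_smul, Finset.sum_const_zero, zero_add] at h
    exact Prod.ext rfl (Subtype.ext h)
  have := LinearMap.finrank_le_finrank_of_injective (f := L.codRestrict _ hL)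
    fun x y h => hi (congrArg Subtype.val h)
  rwa [finrank_prod, finrank_fintype_fun_eq_card, Fintype.card_coe] at this

end Cfsg.Agent.H10.E83Lb
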