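import Cfsg.Agent.H42.FvDefs

/-! A rational vector in normal form: the twisting element may be taken in the monomial group. -/

set_option autoImplicit false

namespace Cfsg.Agent.H10.FvSemiA

open Equiv Cfsg.Lie H37 H40 H34 H29 Module H50.E83 Cfsg.Agent.H42.Fv
open scoped Matrix

theorem semiA (cen : CenStmt) (fr : FrobStmt) (na : Nact2Stmt) (l0 : Lang0Stmt) (pos : PosStmt)
    (fx : FixHStmt) : SemiAStmt := by
  intro g₀ y hy hf
  have hx : act (g₀⁻¹ * Ph g₀) (frV y) = y := by rw [act_mul, fr.1, hf, act_inv_act]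
  have hP : ∀ r, r ∈ Psi (frV y) ↔ r ∈ Psi y := fun r => by
    show al r (frV y) = 0 ↔ al r y = 0
    rw [fr.2.2, pow_eq_zero_iff three_ne_zero]
  have hN : NFm (frV y) := fun r hr => by
    have := hy r fun e => hr (by show y _ ^ 3 = 0; rw [e, zero_pow three_ne_zero])
    exact ⟨this.1, (hP r).2 this.2⟩
  obtain ⟨u, hu, n₁, hn₁, u', hu', ex, hc⟩ := cen _ _ _ hN hy hx
  obtain ⟨c, hc'⟩ := na n₁ hn₁
  have h1 : ∀ r ∈ Psi y, P8.ν n₁ r ∈ Psi y := fun r hr => by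
    have := (hc' (cp (frV y))).2.1 r
    rw [hc, al_cp, al_cp] at this
    exact this.trans ((hP r).2 hr)
  have ha : u * (n₁ * u' * n₁⁻¹) ∈ P8.U (Psi y) :=
    mul_mem (Split.U_mono Set.inter_subset_right hu)
      (Split.conj_U hn₁ (fun r hr => h1 r ((hP r).1 hr.2)) hu')
  obtain ⟨m, hm, hmU, hm1, hm2⟩ := pos y _ (P8.ν_mem n₁ hn₁) h1
  have hν : ∀ r, P8.ν (m * n₁) r = P8.ν m (P8.ν n₁ r) := fun r => by
    rw [P8.ν_mul m hm n₁ hn₁, Perm.mul_apply]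
  have h2 : ∀ r ∈ Psi y, P8.ν (m * n₁) r ∈ Psi y := fun r hr => by
    rw [hν]; exact hm1 _ (h1 r hr)
  have hn : m * n₁ ∈ P8.N := P8.N.mul_mem hm hn₁
  obtain ⟨b, hb, eb⟩ := l0 y _ hn h2 _ (mul_mem ha (inv_mem hmU))
  refine ⟨g₀ * b⁻¹, m * n₁, hn, ?_, ?_, h2, fun r hr => ?_⟩
  · rw [sg_apply, inv_mul_eq_iff_eq_mul] at eb
    rw [map_mul, map_inv, mul_inv_rev, inv_inv, mul_assoc, ← mul_assoc g₀⁻¹, ex, ← mul_assoc,
      mul_inv_eq_iff_eq_mul]
    generalize Ph b = B at eb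
    calc b * (u * n₁ * u') = b * (u * (n₁ * u' * n₁⁻¹) * m⁻¹) * (m * n₁) := by group
      _ = _ := by rw [← eb]; group
  · rw [act_mul, (fx (cp y) fun r hr => (hr rfl).elim).1 _ (inv_mem hb)]
  · rw [hν]; exact hm2 r hr

end Cfsg.Agent.H10.FvSemiA
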