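import Cfsg.Agent.H98.GbL

/-! The Gelfand-Graev multiplicity of the power sums. -/

set_option autoImplicit false

namespace Cfsg.Agent.H10.GbDelp

open Cfsg Finset Cfsg.Agent.H98.GB Polynomial
open scoped MatrixGroups

universe u

variable {F : Type u} [Field F] [Fintype F] [DecidableEq F] (C : Ctx F)

theorem roots_eq {m : ℕ} {g : GL (Fin m) F} (hg : IsU g) : ∀ z ∈ C.roots g, z = 1 := by
  let _ := C.alg
  intro z hz
  obtain ⟨x, hx, rfl⟩ := Multiset.mem_map.1 hz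
  have h1 := (mem_aroots.1 hx).2
  rw [Matrix.charpoly_of_upperTriangular _ fun i j h => by
    rw [hg i j (le_of_lt h), if_neg (ne_of_gt (show j < i from h))], map_prod, prod_eq_zero_iff] at h1
  obtain ⟨i, -, hi⟩ := h1
  rw [hg i i le_rfl, if_pos rfl, map_sub, aeval_X, aeval_C, sub_eq_zero] at hi
  rw [hi]
  simpa using (C.hτ 1).symm

theorem dlt_P (hV : VALStmt.{u}) (a : ℕ) {m : ℕ} (hm : 0 < m) :
    dlt C.ψ (C.P a m) = dlt C.ψ (C.P 0 m) := by
  classical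
  unfold dlt
  refine congrArg _ (sum_congr rfl fun g hg => ?_)
  congr 1
  rcases hV F C m hm g with h | ⟨c, ζ, -, h1, h2, -⟩
  · rw [h, h]
  · have : ζ = 1 := roots_eq C (by simpa using hg) ζ
      (h2 ▸ Multiset.mem_map.2 ⟨0, mem_range.2 hm, by simp⟩)
    simp only [h1, this, one_pow]

theorem dlt_P0 (hF : FOCKStmt.{u}) (hD : DELCStmt.{u}) (hB : BRStmt.{u}) (k : ℕ) :
    dlt C.ψ (C.P 0 (k + 1)) = (-1) ^ k := by
  obtain ⟨d1, -, -, -, -, d6, d7⟩ := hD F C.ψ C.hψ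
  obtain ⟨b1, -, b3⟩ := hB F C
  have t1 : ∀ m, Tw (dl (1 : Fˣ →* ℂˣ) m) fun _ : GL (Fin m) F => (1 : ℂ) := fun m x g => by
    simp [dl_one]
  have key : ∀ k, ∑ i ∈ range (k + 1), dlt C.ψ (C.P 0 (i + 1)) * (if k - i ≤ 1 then 1 else 0) =
      ((k + 1 : ℕ) : ℂ) * if k + 1 ≤ 1 then 1 else 0 := fun k => by
    let L : (GL (Fin (k + 1)) F → ℂ) →ₗ[ℂ] ℂ :=
      { toFun := dlt C.ψ
        map_add' := fun f f' => (d7 _ f f' 0).1
        map_smul' := fun c f => (d7 _ f f c).2 }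
    have h := congrArg (fun x => L (C.H.ev x (k + 1))) (b3 (k + 1))
    rw [nw] at h
    simp only [map_smul, map_sum, Pi.smul_apply, Finset.sum_apply, C.H.ev_sg (t1 _),
      Pi.single_eq_same, smul_eq_mul] at h
    rw [inv_mul_eq_iff_eq_mul₀ (Nat.cast_ne_zero.2 k.succ_ne_zero)] at h
    rw [← d6, ← Fin.sum_univ_eq_sum_range
      (fun i => dlt C.ψ (C.P 0 (i + 1)) * (if k - i ≤ 1 then 1 else 0))]
    refine Eq.trans (sum_congr rfl fun i _ => ?_) h
    have e := (hF F 1 C.H).ev_mul_hg (a := i + 1) (b := k - i) (n := k + 1) (x := C.pa 0 (i + 1))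
      (nw (C.pa 0) (k - i)) (by omega) fun n hn => by
        rw [Ctx.pa, C.H.ev_sg (b1 _ _), Pi.single_eq_of_ne hn]
    rw [e, b3, Ctx.pa, C.H.ev_sg (b1 _ _), C.H.ev_sg (t1 _), Pi.single_eq_same, Pi.single_eq_same,
      ← d6]
    exact (d1 1 _ _ _ _ _ _ (b1 _ _) (t1 _)).symm
  induction k with
  | zero => simpa using key 0
  | succ k ih =>
    have h := key (k + 1)
    rw [sum_range_succ, sum_range_succ, sum_eq_zero fun i hi => by
      rw [if_neg (by have := mem_range.1 hi; omega), mul_zero], if_pos (by omega), if_pos (by omega),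
      if_neg (by omega), ih] at h
    linear_combination h

theorem delp (hF : FOCKStmt.{u}) (hD : DELCStmt.{u}) (hB : BRStmt.{u}) (hV : VALStmt.{u})
    (_hR : ROOTStmt.{u}) (hL : LABStmt.{u}) : DELPStmt.{u} := by
  intro F _ _ _ C φ k hk
  have hm : 0 < C.dg φ * k := Nat.mul_pos ((hL F C).dg_pos φ) hk
  rw [Ctx.pp, map_smul, Pi.smul_apply, ((hD F C.ψ C.hψ).2.2.2.2.2.2 _ _ 0 _).2, Ctx.pa,
    C.H.ev_sg ((hB F C).1 _ _), Pi.single_eq_same, dlt_P C hV _ hm]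
  have e : (C.dg φ + 1) * k = C.dg φ * k + k := by ring
  rw [← pow_mul, e]
  generalize C.dg φ * k = m at hm
  obtain ⟨j, rfl⟩ : ∃ j, m = j + 1 := ⟨m - 1, by omega⟩
  rw [dlt_P0 C hF hD hB, ← pow_add, show j + 1 + k + j = 2 * j + (k + 1) by ring, pow_add, pow_mul,
    neg_one_sq, one_pow, one_mul]

end Cfsg.Agent.H10.GbDelp
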