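import Cfsg.Agent.H98.GbH

/-! Schur functions and power sum monomials. -/

set_option autoImplicit false

namespace Cfsg.Agent.H10.GbMon

open Cfsg Finset Cfsg.Agent.H98.GB

universe u

theorem prod_eq {A : Type*} [CommRing A] [Algebra ℂ A] (N : ℕ) (P : ℕ → A) {μ : Multiset ℕ}
    (hN : μ.sum ≤ N) (hμ : ∀ r ∈ μ, 0 < r) :
    (μ.map P).prod = ∑ S ∈ H19.Lam N μ.sum, (H19.chiS N S μ : ℂ) • sch N P S := by
  have e : ∀ S ∈ H19.Lam N μ.sum, (H19.chiS N S μ : ℂ) • sch N P S = ∑ ν ∈ H19.Par μ.sum,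
      (((H19.chiS N S μ * H19.chiS N S ν : ℤ) : ℂ) / (H19.zM ν : ℂ)) • (ν.map P).prod :=
    fun S hS => by
      rw [sch, (H19.mem_Lam'.1 hS).2, smul_sum]
      exact sum_congr rfl fun ν _ => by rw [smul_smul, Int.cast_mul, mul_div_assoc]
  rw [sum_congr rfl e, sum_comm, sum_eq_single_of_mem μ (H19.mem_Par.2 ⟨rfl, hμ⟩)]
  · rw [← sum_smul, ← sum_div, ← Int.cast_sum, H19.sum_chiS_mul_chiS hμ hμ rfl hN, if_pos rfl,
      Int.cast_natCast, div_self (by exact_mod_cast (H19.zM_pos hμ).ne'), one_smul]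
  · intro ν hν hne
    have h := H19.mem_Par.1 hν
    rw [← sum_smul, ← sum_div, ← Int.cast_sum, H19.sum_chiS_mul_chiS hμ h.2 h.1 hN,
      if_neg hne.symm, Int.cast_zero, zero_div, zero_smul]

theorem mon : MONStmt.{u} := by
  intro A _ _ Φ _ _ N P
  refine ⟨fun Λ => ?_, fun μ hμ => ?_⟩
  · simp only [sL, sch, H98.GB.mon, prod_univ_sum, prod_smul]
  · simp only [sL, H98.GB.mon, fun φ => prod_eq N (P φ) (hμ φ).1 (hμ φ).2, prod_univ_sum, prod_smul]

end Cfsg.Agent.H10.GbMon
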