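import Cfsg.Agent.H98.GbG
import Cfsg.Agent.H14.Clifford
import Cfsg.Agent.H13.Complete

/-! Clifford theory for an irreducible character fixed by a linear character. -/

set_option autoImplicit false

namespace Cfsg.Agent.H10.GbOne

open Cfsg Cfsg.Agent.H98.GB
open scoped ComplexConjugate

universe u

variable {G : Type u} [Group G] [Fintype G]

/-- convolution -/
noncomputable def cv (a b : G → ℂ) : G → ℂ := fun g => ∑ h, a h * b (h⁻¹ * g)

/-- the adjoint -/
noncomputable def tl (a : G → ℂ) : G → ℂ := fun g => conj (a g⁻¹)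

theorem cv_assoc (a b c : G → ℂ) : cv (cv a b) c = cv a (cv b c) := by
  funext g
  simp only [cv, Finset.sum_mul, Finset.mul_sum]
  rw [Finset.sum_comm]
  refine Finset.sum_congr rfl fun k _ => ?_
  rw [← Equiv.sum_comp (Equiv.mulLeft k)]
  exact Finset.sum_congr rfl fun h _ => by simp [mul_assoc]

theorem cv_comm {a : G → ℂ} (ha : IsClassFunction G a) (b : G → ℂ) : cv a b = cv b a := by
  funext g
  simp only [cv]
  rw [← Equiv.sum_comp ((Equiv.inv G).trans (Equiv.mulLeft g))]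
  exact Finset.sum_congr rfl fun h _ => by simp [mul_comm, H13.char_mul_comm' ha g]

theorem cv_smul (c : ℂ) (a b : G → ℂ) : cv a (c • b) = c • cv a b := by
  funext g; simp [cv, Finset.mul_sum, mul_left_comm]

theorem cv_sub (a b c : G → ℂ) : cv a (b - c) = cv a b - cv a c := by
  funext g; simp [cv, mul_sub]

theorem cv_zero (a : G → ℂ) : cv a 0 = 0 := by funext g; simp [cv]
theorem zero_cv (a : G → ℂ) : cv 0 a = 0 := by funext g; simp [cv]

theorem inE_iff {S : Set (IrrCharacter G)} {f : G → ℂ} :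
    InE S f ↔ ∀ χ : IrrCharacter G, χ ∉ S → cv χ.1 f = 0 := by
  simp only [InE, cv, funext_iff, Pi.zero_apply]

theorem conj_l (l : G →* ℂˣ) (x : G) : conj (l x : ℂ) = ((l x)⁻¹ : ℂˣ) := by
  rw [Units.val_inv_eq_inv_val]
  refine H13.conj_eq_inv_of_pow_eq_one (n := Fintype.card G) Fintype.card_ne_zero ?_
  rw [← Units.val_pow_eq_pow_val, ← map_pow, pow_card_eq_one, map_one, Units.val_one]

theorem tw_cv {l l' : G →* ℂˣ} {a b : G → ℂ} (ha : Tw l a) (hb : Tw l' b) :
    Tw (l * l') (cv a b) := fun x g => by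
  simp only [cv, Finset.mul_sum]
  rw [← Equiv.sum_comp (MulAut.conj x).toEquiv]
  refine Finset.sum_congr rfl fun h _ => ?_
  have : (x * h * x⁻¹)⁻¹ * (x * g * x⁻¹) = x * (h⁻¹ * g) * x⁻¹ := by group
  simp only [MulEquiv.toEquiv_eq_coe, EquivLike.coe_coe, MulAut.conj_apply, this, ha x, hb x,
    MonoidHom.mul_apply, Units.val_mul]
  ring

theorem tw_tl {l : G →* ℂˣ} {a : G → ℂ} (ha : Tw l a) : Tw l⁻¹ (tl a) := fun x g => by
  have : (x * g * x⁻¹)⁻¹ = x * g⁻¹ * x⁻¹ := by group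
  simp only [tl, this, ha x, map_mul, conj_l, MonoidHom.inv_apply]

omit [Fintype G] in
theorem cls_of_tw {a : G → ℂ} (ha : Tw 1 a) : IsClassFunction G a := fun g h => by
  simpa using ha h g

theorem eq_smul (hD : DECStmt.{u}) {χ : IrrCharacter G} {h : G → ℂ} (hc : IsClassFunction G h)
    (hE : InE {χ} h) : h = classInner h χ.1 • χ.1 := by
  have h1 := ((hD G).2.2.2 {χ} h hc).1 hE
  refine H13.classFunction_ext hc (fun g x => by
    simp only [Pi.smul_apply, H13.isClassFunction_of_irr χ.2 g x]) fun ψ hψ => ?_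
  rw [H13.inner_smul_left]
  by_cases e : χ.1 = ψ
  · rw [← e, H13.inner_irr_self χ.2, mul_one]
  · rw [H13.inner_irr_of_ne χ.2 hψ e, mul_zero]
    exact h1 ⟨ψ, hψ⟩ fun e' => e (congrArg Subtype.val e').symm

theorem uniq (hD : DECStmt.{u}) {χ : IrrCharacter G} {l : G →* ℂˣ} {f F : G → ℂ}
    (hf : f ∈ VS l {χ}) (hF : F ∈ VS l {χ}) (h1 : classInner F F = 1) (h0 : classInner f F = 0) :
    f = 0 := by
  have hG := H14.card_group_ne_zero G
  have hχ := H13.isClassFunction_of_irr χ.2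
  have e1 := eq_smul hD (χ := χ) (cls_of_tw (mul_inv_cancel l ▸ tw_cv hf.1 (tw_tl hF.1)))
    (inE_iff.2 fun ψ hψ => by rw [← cv_assoc, inE_iff.1 hf.2 ψ hψ, zero_cv])
  have e2 := eq_smul hD (χ := χ) (cls_of_tw (inv_mul_cancel l ▸ tw_cv (tw_tl hF.1) hF.1))
    (inE_iff.2 fun ψ hψ => by
      rw [← cv_assoc, cv_comm (H13.isClassFunction_of_irr ψ.2), cv_assoc, inE_iff.1 hF.2 ψ hψ,
        cv_zero])
  generalize classInner (cv f (tl F)) χ.1 = c at e1
  generalize classInner (cv (tl F) F) χ.1 = d at e2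
  have hc : c = 0 := by
    have := congrFun e1 1
    simp only [cv, tl, mul_one, inv_inv, Pi.smul_apply, smul_eq_mul] at this
    rw [classInner, mul_eq_zero, this, mul_eq_zero] at h0
    exact (h0.resolve_left (inv_ne_zero hG)).resolve_right (H13.irr_one_ne_zero χ.2)
  have hd : d ≠ 0 := by
    rintro rfl
    have := congrFun e2 1
    simp only [cv, tl, mul_one, zero_smul, Pi.zero_apply] at this
    rw [← Equiv.sum_comp (Equiv.inv G)] at this
    simp only [Equiv.inv_apply, inv_inv, mul_comm (conj _)] at this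
    rw [classInner, this, mul_zero] at h1
    exact zero_ne_one h1
  have e3 : cv χ.1 f = 0 := by
    have := cv_assoc f (tl F) F
    rw [e1, e2, hc, zero_smul, zero_cv, cv_smul, eq_comm, smul_eq_zero] at this
    rw [cv_comm hχ, this.resolve_left hd]
  have e4 : InE ∅ f := inE_iff.2 fun ψ _ => by
    by_cases e : ψ = χ
    · rw [e, e3]
    · exact inE_iff.1 hf.2 ψ e
  exact H11.classInner_self_eq_zero.1 ((hD G).2.1 ∅ ∅ f f e4 e4 (by simp))

theorem sum_conj {χ : G → ℂ} (hχ : IsIrrCharacter G χ) (a b : G) :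
    ∑ y, χ (y * b * y⁻¹ * a) = Nat.card G * χ b / χ 1 * χ a := by
  classical
  have := H13.sum_mul_irr_mul (f := fun g => ∑ y, if g = y * b * y⁻¹ then 1 else 0) (fun g h => by
    beta_reduce
    rw [← Equiv.sum_comp (Equiv.mulLeft h)]
    refine Finset.sum_congr rfl fun y _ => if_congr ?_ rfl rfl
    rw [Equiv.coe_mulLeft, show h * y * b * (h * y)⁻¹ = h * (y * b * y⁻¹) * h⁻¹ by group,
      mul_left_inj, mul_right_inj]) hχ a
  simp only [Finset.sum_mul] at this
  rw [Finset.sum_comm, Finset.sum_comm (f := fun g y => (if g = y * b * y⁻¹ then 1 else 0) * χ g)]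
    at this
  simpa [H13.isClassFunction_of_irr hχ b] using this

variable {K : Subgroup G} [hK : K.Normal]

theorem cv_ext {ψ : IrrCharacter G} {θ : IrrCharacter K} (h : ¬ H22.Over K ψ.1 θ.1) :
    cv ψ.1 (extendByZero K θ.1) = 0 := by
  have hG := H14.card_group_ne_zero G
  have h1 := H22.fC_mul_cid_eq_zero (N := K) (B := {ψ}) (A := {θ})
    (by rintro ⟨_, rfl, _, rfl, h'⟩; exact h h')
  have h2 : ∀ g, subgroupBlockCoeff K {θ} g =
      (Nat.card K : ℂ)⁻¹ * θ.1 1 * extendByZero K θ.1 g⁻¹ := fun g => by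
    by_cases hg : g ∈ K
    · rw [H18.subgroupBlockCoeff_of_mem K _ hg, H17.blockCoeff_singleton,
        H14.extendByZero_of_mem K _ (K.inv_mem hg), mul_assoc]; rfl
    · rw [H18.subgroupBlockCoeff_of_notMem K _ hg,
        H14.extendByZero_of_not_mem K _ (mt K.inv_mem_iff.1 hg), mul_zero]
  funext g
  have h3 := congrArg (fun a => a.coeff g⁻¹) h1
  simp only [H17.coeff_mul_right, H17.coeff_fC, H18.coeff_cid, H17.blockCoeff_singleton, h2] at h3
  rw [← Equiv.sum_comp (Equiv.inv G)] at h3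
  rw [cv_comm (H13.isClassFunction_of_irr ψ.2)]
  have h4 : (Nat.card G : ℂ)⁻¹ * ψ.1 1 * ((Nat.card K : ℂ)⁻¹ * θ.1 1) ≠ 0 :=
    mul_ne_zero (mul_ne_zero (inv_ne_zero hG) (H13.irr_one_ne_zero ψ.2))
      (mul_ne_zero (inv_ne_zero (H14.card_subgroup_ne_zero K)) (H13.irr_one_ne_zero θ.2))
  refine (mul_eq_zero.1 (Eq.trans ?_ h3)).resolve_left h4
  rw [cv, Finset.mul_sum]
  refine Finset.sum_congr rfl fun h _ => ?_
  simp only [Equiv.inv_apply, inv_inv, mul_inv_rev]
  ring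

theorem ext_sum [Fintype K] {ψ : IrrCharacter G} {θ : IrrCharacter K} (h : ¬ H22.Over K ψ.1 θ.1)
    (g : G) : ∑ k : K, θ.1 k * ψ.1 ((k : G)⁻¹ * g) = 0 := by
  have := congrFun (cv_ext h) g
  rwa [cv_comm (H13.isClassFunction_of_irr ψ.2), cv, H14.sum_extendByZero_mul] at this

theorem tw_sum (l : G →* ℂˣ) (f : G → ℂ) : Tw l fun g => ∑ x, (l x : ℂ) * f (x⁻¹ * g * x) :=
  fun z g => by
    simp only [Finset.mul_sum]
    rw [← Equiv.sum_comp (Equiv.mulLeft z)]
    refine Finset.sum_congr rfl fun x _ => ?_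
    rw [Equiv.coe_mulLeft, show (z * x)⁻¹ * (z * g * z⁻¹) * (z * x) = x⁻¹ * g * x by group, map_mul,
      Units.val_mul, mul_assoc]

theorem inertia_le {l : G →* ℂˣ} {χ : IrrCharacter G} (hl : lm l χ.1 = χ.1)
    {θ : IrrCharacter l.ker} (h : H22.Over l.ker χ.1 θ.1) : H14.inertia l.ker θ.1 ≤ l.ker := by
  have := Fintype.ofFinite l.ker
  have hG := H14.card_group_ne_zero G
  have hχ := H13.isClassFunction_of_irr χ.2
  obtain ⟨A, hA0⟩ : ∃ A : G → G → ℂ,
    A = fun y g => ∑ x, (l x : ℂ) * χ.1 (x⁻¹ * g * x * y⁻¹) := ⟨_, rfl⟩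
  have hA : ∀ y, Tw l (A y) := fun y => hA0 ▸ tw_sum l fun g => χ.1 (g * y⁻¹)
  obtain ⟨y, hy⟩ : ∃ y, A y y ≠ 0 := by
    by_contra! h0
    have h1 : ∑ y, A y y = Nat.card G / χ.1 1 * (Nat.card G * classInner χ.1 χ.1) := by
      rw [H13.inner_eq_sum_inv _ (H13.isCharacter_of_irr χ.2), mul_inv_cancel_left₀ hG, hA0,
        Finset.sum_comm, Finset.mul_sum]
      refine Finset.sum_congr rfl fun x _ => ?_
      have e : ∀ y, χ.1 (x⁻¹ * y * x * y⁻¹) = χ.1 (y * x * y⁻¹ * x⁻¹) := fun y => by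
        rw [← hχ _ x]; group
      have e' : (l x : ℂ) * χ.1 x = χ.1 x := congrFun hl x
      simp only [← Finset.mul_sum, e, sum_conj χ.2]
      linear_combination (Nat.card G : ℂ) / χ.1 1 * χ.1 x⁻¹ * e'
    rw [H13.inner_irr_self χ.2, mul_one, Finset.sum_eq_zero fun y _ => h0 y] at h1
    exact mul_ne_zero (div_ne_zero hG (H13.irr_one_ne_zero χ.2)) hG h1.symm
  have hyK : y ∈ l.ker := by
    have := hA y y y
    rw [mul_inv_cancel_right, eq_comm, mul_eq_right₀ hy] at this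
    exact Units.ext this
  have hc : ∀ x, H14.conjChar l.ker (fun k => A y k) x = (l x : ℂ) • fun k : l.ker => A y k :=
    fun x => funext fun k => hA y x k
  obtain ⟨φ, hφ, hne⟩ : ∃ φ, IsIrrCharacter l.ker φ ∧ classInner (fun k : l.ker => A y k) φ ≠ 0 := by
    by_contra! h0
    exact hy (congrFun (H13.eq_zero_of_inner_irr_eq_zero (f := fun k : l.ker => A y k)
      (fun g k => by simpa [show l k = 1 from k.2] using hA y k g) h0) ⟨y, hyK⟩)
  have ho : H22.Over l.ker χ.1 φ := by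
    by_contra h0
    apply hne
    rw [H13.inner_eq_sum_inv _ (H13.isCharacter_of_irr hφ), hA0]
    simp only [Finset.sum_mul]
    rw [Finset.sum_comm, Finset.sum_eq_zero, mul_zero]
    intro x _
    have := ext_sum (θ := ⟨φ, hφ⟩) h0 (x * y⁻¹ * x⁻¹)
    rw [← Equiv.sum_comp (Equiv.inv _)] at this
    rw [← mul_zero (l x : ℂ), ← this, Finset.mul_sum]
    refine Finset.sum_congr rfl fun k _ => ?_
    rw [← hχ _ x, mul_assoc, mul_comm (χ.1 _)]
    simp [mul_assoc]
  obtain ⟨g, rfl⟩ := H14.clifford_conj l.ker χ.2 θ.2 hφ ((H22.over_iff _ _ _).1 h)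
    ((H22.over_iff _ _ _).1 ho)
  intro x hx
  have h1 : g⁻¹ * x * g ∈ H14.inertia l.ker (H14.conjChar l.ker θ.1 g) :=
    (H14.mem_inertia_conjChar _).2 (by simpa [mul_assoc] using hx)
  have h2 := H14.inner_conjChar_conjChar l.ker (fun k => A y k) (H14.conjChar l.ker θ.1 g)
    (g⁻¹ * x * g)
  rw [hc, (H14.mem_inertia _).1 h1, H13.inner_smul_left, mul_eq_right₀ hne] at h2
  simpa [mul_assoc] using
    (inferInstance : l.ker.Normal).conj_mem _ (show g⁻¹ * x * g ∈ l.ker from Units.ext h2) g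

omit hK in
theorem tw_av (l : G →* ℂˣ) (θ : K → ℂ) : Tw l (av K l θ) := fun x g => by
  have := tw_sum l (extendByZero K θ) x g
  simp only [av] at this ⊢
  rw [this]; ring

omit hK in
theorem cv_av {ψ : G → ℂ} (hψ : IsClassFunction G ψ) (l : G →* ℂˣ) {θ : K → ℂ}
    (h : cv ψ (extendByZero K θ) = 0) : cv ψ (av K l θ) = 0 := by
  funext g
  simp only [cv, av, Finset.mul_sum]
  rw [Finset.sum_comm]
  refine Finset.sum_eq_zero fun x _ => ?_
  have := congrFun h (x⁻¹ * g * x)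
  rw [← Equiv.sum_comp (MulAut.conj x).toEquiv, ← mul_zero ((Nat.card K : ℂ)⁻¹ * l x),
    ← show _ = (0 : ℂ) from this, cv, Finset.mul_sum]
  refine Finset.sum_congr rfl fun k _ => ?_
  have e : x⁻¹ * ((x * k * x⁻¹)⁻¹ * g) * x = k⁻¹ * (x⁻¹ * g * x) := by group
  simp only [MulEquiv.toEquiv_eq_coe, EquivLike.coe_coe, MulAut.conj_apply, e, hψ k x]
  ring

omit hK in
theorem inner_av [Fintype K] {l : G →* ℂˣ} (θ : K → ℂ) {f : G → ℂ} (hf : Tw l f) :
    classInner (av K l θ) f = classInner θ fun k => f k := by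
  have hG := H14.card_group_ne_zero G
  have e : ∀ x, ∑ g, (l x : ℂ) * extendByZero K θ (x⁻¹ * g * x) * conj (f g) =
      ∑ k : K, θ k * conj (f k) := fun x => by
    rw [← Equiv.sum_comp (MulAut.conj x).toEquiv,
      ← H14.sum_extendByZero_mul K θ fun g => conj (f g)]
    refine Finset.sum_congr rfl fun g _ => ?_
    have e : x⁻¹ * (x * g * x⁻¹) * x = g := by group
    simp only [MulEquiv.toEquiv_eq_coe, EquivLike.coe_coe, MulAut.conj_apply, e, hf x, map_mul,
      conj_l]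
    linear_combination extendByZero K θ g * conj (f g) * (l x).mul_inv
  simp only [classInner, av, mul_assoc (Nat.card K : ℂ)⁻¹, ← Finset.mul_sum, Finset.sum_mul]
  rw [Finset.sum_comm]
  simp only [e, Finset.sum_const, Finset.card_univ, nsmul_eq_mul, ← Nat.card_eq_fintype_card]
  field_simp

omit [Fintype G] in
theorem cj_eq (x : G) (θ : K → ℂ) : cj K x θ = H14.conjChar K θ x⁻¹ := funext fun k => by
  rw [cj, H14.extendByZero_of_mem K θ (hK.conj_mem' _ k.2 x), H14.conjChar_apply]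
  simp

theorem norm_av {l : G →* ℂˣ} (hl : K ≤ l.ker) {θ : IrrCharacter K} (hi : H14.inertia K θ.1 ≤ K) :
    classInner (av K l θ.1) (av K l θ.1) = 1 := by
  classical
  have := Fintype.ofFinite K
  have e : (fun k : K => av K l θ.1 k) =
      (Nat.card K : ℂ)⁻¹ • ∑ x, (l x : ℂ) • H14.conjChar K θ.1 x⁻¹ := by
    funext k
    simp only [av, ← cj_eq, Pi.smul_apply, Finset.sum_apply, smul_eq_mul, cj]
  have e' : ∀ x, (l x : ℂ) * classInner (H14.conjChar K θ.1 x⁻¹) θ.1 =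
      extendByZero K (fun _ => 1) x := fun x => by
    by_cases hx : x ∈ K
    · rw [H14.conjChar_of_mem K (H13.isClassFunction_of_irr θ.2) (K.inv_mem hx),
        H13.inner_irr_self θ.2, show l x = 1 from hl hx, H14.extendByZero_of_mem K _ hx]
      simp
    · rw [H13.inner_irr_of_ne (H14.isIrr_conjChar K θ.2 _) θ.2
        fun h => hx (K.inv_mem_iff.1 (hi h)), mul_zero, H14.extendByZero_of_not_mem K _ hx]
  rw [inner_av _ (tw_av l θ.1), ← H13.inner_conj_symm, e, H13.inner_smul_left, H13.inner_sum_left]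
  simp only [H13.inner_smul_left, e', H14.sum_extendByZero, Finset.sum_const, Finset.card_univ,
    nsmul_eq_mul, mul_one, ← Nat.card_eq_fintype_card]
  rw [inv_mul_cancel₀ (H14.card_subgroup_ne_zero K), map_one]

theorem one (hD : DECStmt.{u}) : ONEStmt.{u} := by
  intro G _ _ l χ hl θ h
  have hi := inertia_le hl h
  have key : ∀ ψ : IrrCharacter G, H22.Over l.ker ψ.1 θ.1 → indFun l.ker θ.1 = ψ.1 := fun ψ hψ =>
    H11.irr_eq_of_classInner_ne_zero ((H14.isIrr_indFun_iff_inertia_le _ θ.2).2 hi) ψ.2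
      ((H22.over_iff_ind _ (H13.isClassFunction_of_irr ψ.2) _).1 hψ)
  have h3 : ∀ ψ : IrrCharacter G, H22.Over l.ker ψ.1 θ.1 → ψ = χ := fun ψ hψ =>
    Subtype.ext ((key ψ hψ).symm.trans (key χ h))
  refine ⟨?_, fun x hx => l.ker.inv_mem_iff.1 (hi ((cj_eq x θ.1).symm.trans hx)), h3, fun j => ?_⟩
  · rw [← key χ h]; funext g; simp [av, indFun]
  have hF : av l.ker (l ^ j) θ.1 ∈ VS (l ^ j) {χ} := ⟨tw_av _ _, inE_iff.2 fun ψ hψ =>
    cv_av (H13.isClassFunction_of_irr ψ.2) _ (cv_ext fun ho => hψ (h3 ψ ho))⟩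
  have hn := norm_av (l := l ^ j) (fun x hx => by
    rw [MonoidHom.mem_ker, MonoidHom.pow_apply, show l x = 1 from hx, one_pow]) hi
  refine ⟨hF, hn, fun f hf => ⟨classInner f (av l.ker (l ^ j) θ.1), sub_eq_zero.1 ?_⟩⟩
  refine uniq hD (l := l ^ j) ⟨fun x g => ?_, inE_iff.2 fun ψ hψ => ?_⟩ hF hn ?_
  · simp only [Pi.sub_apply, Pi.smul_apply, hf.1 x, hF.1 x, smul_eq_mul]; ring
  · rw [cv_sub, cv_smul, inE_iff.1 hf.2 ψ hψ, inE_iff.1 hF.2 ψ hψ, smul_zero, sub_zero]
  · rw [H13.inner_sub_left, H13.inner_smul_left, hn, mul_one, sub_self]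

theorem eqns : True := by
  have := @cv.eq_1.{0}
  have := @tl.eq_1.{0}
  trivial

end Cfsg.Agent.H10.GbOne
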