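import Cfsg.Agent.H50.L81Defs

/-! Project L81, piece TWE: a twisted element fixing the fixed space of `⟨t, b⟩`. -/

set_option autoImplicit false

namespace Cfsg.Agent.H10.L81Twe

open Cfsg.Lie H37 H40 H34 H29 Module H82 Finset H50.E83 H50.L81
open H42.Fv (al sg frV)

/-- cubing the parameters of a word -/
noncomputable def cu (L : List (Bool × K)) : List (Bool × K) := L.map fun q => (q.1, q.2 ^ 3)

/-- cubing coordinates -/
noncomputable def c3 (x : K × K × K) : K × K × K := (x.1 ^ 3, x.2.1 ^ 3, x.2.2 ^ 3)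

theorem eqns : True := by
  have := @cu.eq_1
  have := @c3.eq_1
  trivial

theorem um_def (t : K) (x : K × K × K) :
    Um t x = (x.1 - 2 * t * x.2.2 - t ^ 2 * x.2.1, x.2.1, x.2.2 + t * x.2.1) := rfl

theorem lm_def (t : K) (x : K × K × K) :
    Lm t x = (x.1, x.2.1 + 2 * t * x.2.2 - t ^ 2 * x.1, x.2.2 - t * x.1) := rfl

theorem sv_def (i : Fin 4) (x : K × K × K) :
    sv i x = x.1 • ee (aa i) + x.2.1 • ee (ng (aa i)) + x.2.2 • hr (aa i) := rfl

theorem gw_def (i : Fin 4) (L : List (Bool × K)) :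
    gw i L = (L.map fun q => xx (if q.1 then aa i else ng (aa i)) q.2).prod := rfl

theorem al_def (r : Rt) (v : V) :
    al r v = ∑ i, v (Sum.inl i) * ((chevE8.cartan i r : ℤ) : K) := rfl

theorem um_c3 (t : K) (x : K × K × K) : Um (t ^ 3) (c3 x) = c3 (Um t x) := by
  have h : ∀ a : K, a ^ 3 = frobenius K 3 a := fun a => rfl
  simp only [um_def, c3, h, map_sub, map_add, map_mul, map_pow, map_ofNat]

theorem lm_c3 (t : K) (x : K × K × K) : Lm (t ^ 3) (c3 x) = c3 (Lm t x) := by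
  have h : ∀ a : K, a ^ 3 = frobenius K 3 a := fun a => rfl
  simp only [lm_def, c3, h, map_sub, map_add, map_mul, map_pow, map_ofNat]

theorem wd_cons (b : Bool) (t : K) (L : List (Bool × K)) (x : K × K × K) :
    wd ((b, t) :: L) x = if b then Um t (wd L x) else Lm t (wd L x) := rfl

theorem wd_cu (L : List (Bool × K)) (x : K × K × K) : wd (cu L) (c3 x) = c3 (wd L x) := by
  induction L with
  | nil => rfl
  | cons q L ih =>
    obtain ⟨b, t⟩ := q
    have e : cu ((b, t) :: L) = (b, t ^ 3) :: cu L := rfl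
    rw [e, wd_cons, wd_cons, ih]
    cases b
    · exact lm_c3 _ _
    · exact um_c3 _ _

theorem wd_smul (L : List (Bool × K)) (c : K) (x : K × K × K) : wd L (c • x) = c • wd L x := by
  induction L with
  | nil => rfl
  | cons q L ih =>
    obtain ⟨b, t⟩ := q
    rw [wd_cons, wd_cons, ih]
    cases b
    · refine Prod.ext rfl (Prod.ext ?_ ?_) <;> simp [lm_def] <;> ring
    · refine Prod.ext ?_ (Prod.ext rfl ?_) <;> simp [um_def] <;> ring

theorem sv_sub (i : Fin 4) (x y : K × K × K) : sv i (x - y) = sv i x - sv i y := by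
  simp only [sv_def, Prod.fst_sub, Prod.snd_sub, sub_smul]
  abel

theorem sv_zero (i : Fin 4) : sv i 0 = 0 := by
  simp [sv_def]

theorem zc_zero : Zc 0 := ⟨Cart.zero_mem, fun _ => by simp [al_def]⟩

theorem zc_sub {h h' : V} (a : Zc h) (b : Zc h') : Zc (h - h') :=
  ⟨Cart.sub_mem a.1 b.1, fun i => by
    have a2 := a.2 i
    have b2 := b.2 i
    rw [al_def] at a2 b2 ⊢
    simp only [Pi.sub_apply, sub_mul, Finset.sum_sub_distrib, a2, b2, sub_zero]⟩

theorem sum_single (y : K × K × K) :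
    ∑ i, sv i ((Pi.single (0 : Fin 4) y : Fin 4 → K × K × K) i) = sv 0 y := by
  rw [Finset.sum_eq_single 0 (fun j _ hj => by rw [Pi.single_eq_of_ne hj, sv_zero])
    (fun h => absurd (Finset.mem_univ _) h), Pi.single_eq_same]

theorem twe (ne0 : Ne0Stmt) (gwa : GwaStmt) (f3 : F3Stmt) (ne : NeStmt) (lin : LinStmt) :
    TweStmt := by
  obtain ⟨n, hn, h1, h2, h3⟩ := ne0
  obtain ⟨g1, g2, g3⟩ := gwa
  refine ⟨n, hn, h1, fun ζ t hζ ht b hb hsb hfin => ?_⟩
  obtain ⟨a, ha, hl⟩ := lin ζ t hζ ht n b h3 hsb hfin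
  obtain ⟨L, hL, hLa, y, hy⟩ := f3 a ha
  obtain ⟨n1, n2⟩ := ne ζ t hζ ht b hb
  obtain ⟨t1, t2⟩ := g3 ζ t hζ ht
  have hsg : ∀ i M, sg n (gw i M) = gw (i + 1) (cu M) := by
    intro i M
    simp only [gw_def, cu, map_list_prod, List.map_map]
    congr 1
    refine List.map_congr_left fun q _ => ?_
    obtain ⟨c, s⟩ := q
    cases c
    · exact (h2 i s).2
    · exact (h2 i s).1
  have h4 : cu (cu (cu (cu L))) = L := by
    simp only [cu, List.map_map]
    conv_rhs => rw [← List.map_id L]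
    refine List.map_congr_left fun q hq => Prod.ext rfl ?_
    simp only [Function.comp, ← pow_mul]
    exact hL q hq
  have hact : ∀ v, act (gw 0 L * gw 1 (cu L) * gw 2 (cu (cu L)) * gw 3 (cu (cu (cu L)))) v =
      act (gw 0 L) (act (gw 1 (cu L)) (act (gw 2 (cu (cu L))) (act (gw 3 (cu (cu (cu L)))) v))) := by
    intro v
    simp only [map_mul, Module.End.mul_apply]
  have a0 : ∀ x, act (gw 0 L * gw 1 (cu L) * gw 2 (cu (cu L)) * gw 3 (cu (cu (cu L)))) (sv 0 x) =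
      sv 0 (wd L x) := fun x => by
    rw [hact, (g1 3 _).2.1 0 x (by decide), (g1 2 _).2.1 0 x (by decide),
      (g1 1 _).2.1 0 x (by decide), (g1 0 _).1]
  have a1 : ∀ x, act (gw 0 L * gw 1 (cu L) * gw 2 (cu (cu L)) * gw 3 (cu (cu (cu L)))) (sv 1 x) =
      sv 1 (wd (cu L) x) := fun x => by
    rw [hact, (g1 3 _).2.1 1 x (by decide), (g1 2 _).2.1 1 x (by decide), (g1 1 _).1,
      (g1 0 _).2.1 1 _ (by decide)]
  have a2 : ∀ x, act (gw 0 L * gw 1 (cu L) * gw 2 (cu (cu L)) * gw 3 (cu (cu (cu L)))) (sv 2 x) =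
      sv 2 (wd (cu (cu L)) x) := fun x => by
    rw [hact, (g1 3 _).2.1 2 x (by decide), (g1 2 _).1, (g1 1 _).2.1 2 _ (by decide),
      (g1 0 _).2.1 2 _ (by decide)]
  have a3 : ∀ x, act (gw 0 L * gw 1 (cu L) * gw 2 (cu (cu L)) * gw 3 (cu (cu (cu L)))) (sv 3 x) =
      sv 3 (wd (cu (cu (cu L))) x) := fun x => by
    rw [hact, (g1 3 _).1, (g1 2 _).2.1 3 _ (by decide), (g1 1 _).2.1 3 _ (by decide),
      (g1 0 _).2.1 3 _ (by decide)]
  have ah : ∀ h, Zc h →
      act (gw 0 L * gw 1 (cu L) * gw 2 (cu (cu L)) * gw 3 (cu (cu (cu L)))) h = h := fun h hh => by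
    rw [hact, (g1 3 _).2.2.1 h hh, (g1 2 _).2.2.1 h hh, (g1 1 _).2.2.1 h hh, (g1 0 _).2.2.1 h hh]
  refine ⟨gw 0 L * gw 1 (cu L) * gw 2 (cu (cu L)) * gw 3 (cu (cu (cu L))), ?_, ?_, ?_, sv 0 y, ?_, ?_⟩
  · rw [map_mul, map_mul, map_mul, hsg, hsg, hsg, hsg, h4]
    have c : Commute (gw 0 L) (gw 1 (cu L) * gw 2 (cu (cu L)) * gw 3 (cu (cu (cu L)))) :=
      (((g1 0 L).2.2.2 1 _ (by decide)).mul_right ((g1 0 L).2.2.2 2 _ (by decide))).mul_right
        ((g1 0 L).2.2.2 3 _ (by decide))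
    refine c.eq.symm.trans ?_
    simp only [mul_assoc]
  · exact ((((t1 0 _).mul_right (t1 1 _)).mul_right (t1 2 _)).mul_right (t1 3 _)).symm
  · intro v hv
    rw [mem_Fix] at hv
    obtain ⟨h, x, hh, rfl⟩ := (t2 v).1 (hv t (by simp))
    have hb' := hv b (by simp)
    choose w hw using fun i => n2 i (x i)
    rw [map_add, map_sum] at hb'
    simp only [hw] at hb'
    have e := (g2 (act b h - h) (fun i => w i - x i) (zc_sub (n1 h hh) hh) (by
      simp only [sv_sub, Finset.sum_sub_distrib]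
      rw [sub_add_sub_comm, hb', sub_self])).2
    have hx : ∀ i, act b (sv i (x i)) = sv i (x i) := fun i => by rw [hw, sub_eq_zero.1 (e i)]
    obtain ⟨c0, e0⟩ := hl 0 _ (hx 0)
    obtain ⟨c1, e1⟩ := hl 1 _ (hx 1)
    obtain ⟨c2, e2⟩ := hl 2 _ (hx 2)
    obtain ⟨c3', e3⟩ := hl 3 _ (hx 3)
    have k0 : x 0 = c0 • a := by rw [e0]; simp
    have k1 : x 1 = c1 • c3 a := by rw [e1]; simp [c3]
    have k2 : x 2 = c2 • c3 (c3 a) := by rw [e2]; simp [c3, ← pow_mul]
    have k3 : x 3 = c3' • c3 (c3 (c3 a)) := by rw [e3]; simp [c3, ← pow_mul]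
    rw [map_add, ah h hh, Fin.sum_univ_four, map_add, map_add, map_add, a0, a1, a2, a3, k0, k1, k2, k3]
    simp only [wd_smul, wd_cu, hLa]
  · exact (t2 _).2 ⟨0, Pi.single 0 y, zc_zero, by rw [sum_single, zero_add]⟩
  · rw [sq, map_mul, Module.End.mul_apply, a0, a0]
    intro e
    have := (g2 0 (Pi.single 0 (wd L (wd L y) - y)) zc_zero (by
      rw [sum_single, zero_add, sv_sub, e, sub_self])).2 0
    rw [Pi.single_eq_same, sub_eq_zero] at this
    exact hy this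

end Cfsg.Agent.H10.L81Twe
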