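import Mathlib
import Cfsg.Agent.H71.P3Defs

/-! Rank three actions of the symplectic groups, step `W1`: an invariant family of totally isotropic
subspaces which are not maximal gives too many orbits on lines. -/

set_option autoImplicit false
set_option linter.unusedSectionVars false

namespace Cfsg.Agent.H10.P3W1

open Cfsg Module Cfsg.Agent.H27 Cfsg.Agent.H71.P3
open scoped Pointwise

theorem ncard_fib {α β : Type} [Finite α] [Finite β] (T : Set α) (A : Set β) (f : α → β) (n : ℕ)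
    (hf : ∀ p ∈ T, f p ∈ A) (h : ∀ b ∈ A, {p | p ∈ T ∧ f p = b}.ncard = n) :
    T.ncard = A.ncard * n := by
  classical
  rw [Set.ncard_eq_toFinset_card T, Set.ncard_eq_toFinset_card A,
    Finset.card_eq_sum_card_fiberwise (f := f) (t := A.toFinite.toFinset)
      (fun p hp => by simpa using hf p (by simpa using hp)), ← smul_eq_mul, ← Finset.sum_const]
  refine Finset.sum_congr rfl fun b hb => ?_
  rw [← h b (by simpa using hb), ← Set.ncard_coe_finset]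
  congr 1
  ext p
  simp

theorem arith {q a b c0 c1 : ℕ} (hq : 2 ≤ q) (h0 : 0 < c0) (h1 : 0 < c1) (l1 : c1 < q ^ 2) :
    (q ^ (a + 2) - q ^ 1) * c1 ≠ (q ^ (a + 4 + 2 * b) - q ^ (a + 2)) * c0 ∧
    (q ^ (a + 2) - q ^ 1) * c1 ≠ (q ^ (2 * a + 5 + 2 * b) - q ^ (a + 4 + 2 * b)) * c0 ∧
    (q ^ (a + 4 + 2 * b) - q ^ (a + 2)) * c1 ≠
      (q ^ (2 * a + 5 + 2 * b) - q ^ (a + 4 + 2 * b)) * c0 := by
  obtain ⟨P, hP⟩ : ∃ P, q ^ (a + 1) = P + 1 := ⟨q ^ (a + 1) - 1, by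
    have : 0 < q ^ (a + 1) := by positivity
    omega⟩
  obtain ⟨R, hR⟩ : ∃ R, q ^ (2 * b + 2) = R + 1 := ⟨q ^ (2 * b + 2) - 1, by
    have : 0 < q ^ (2 * b + 2) := by positivity
    omega⟩
  have P0 : 0 < P := by
    have : 1 < q ^ (a + 1) := Nat.one_lt_pow (by omega) hq
    omega
  have R1 : c1 ≤ R := by
    have : q ^ 2 ≤ q ^ (2 * b + 2) := Nat.pow_le_pow_right (by omega) (by omega)
    omega
  have e1 : q ^ (a + 2) = q * (P + 1) := by rw [← hP]; ring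
  have e2 : q ^ (a + 4 + 2 * b) = q * (P + 1) * (R + 1) := by rw [← hP, ← hR]; ring
  have e3 : q ^ (2 * a + 5 + 2 * b) = q * (P + 1) * (R + 1) * (P + 1) := by rw [← hP, ← hR]; ring
  have f1 : q ^ (a + 2) - q ^ 1 = q * P := by rw [e1, pow_one, mul_add_one, Nat.add_sub_cancel]
  have f2 : q ^ (a + 4 + 2 * b) - q ^ (a + 2) = q * ((P + 1) * R) := by
    rw [e1, e2, mul_add_one, Nat.add_sub_cancel, mul_assoc]
  have f3 : q ^ (2 * a + 5 + 2 * b) - q ^ (a + 4 + 2 * b) = q * (P * ((P + 1) * (R + 1))) := by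
    rw [e2, e3, mul_add_one _ P, Nat.add_sub_cancel]; ring
  have q0 : 0 < q := by omega
  rw [f1, f2, f3]
  simp only [mul_assoc, Ne, Nat.mul_right_inj q0.ne', Nat.mul_right_inj P0.ne']
  refine ⟨fun h => ?_, fun h => ?_, fun h => ?_⟩
  · have : P * c1 ≤ P * R := Nat.mul_le_mul_left _ R1
    have : R ≤ R * c0 := Nat.le_mul_of_pos_right _ h0
    nlinarith
  · have : R + 1 ≤ (R + 1) * c0 := Nat.le_mul_of_pos_right _ h0
    nlinarith
  · have h2 : R * c1 = (R + 1) * (P * c0) := by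
      refine Nat.eq_of_mul_eq_mul_left (show 0 < P + 1 by omega) ?_
      rw [h]; ring
    have h3 : R + 1 ∣ c1 :=
      Nat.Coprime.dvd_of_dvd_mul_left (by simp : (R + 1).Coprime R) ⟨_, h2⟩
    have := Nat.le_of_dvd h1 h3
    omega

variable {F V : Type} [Field F] [Finite F] [AddCommGroup V] [Module F V] [Finite V]

theorem ncard_sub (A : Submodule F V) : (A : Set V).ncard = Nat.card F ^ dm A := by
  rw [← Nat.card_coe_set_eq]
  exact Module.natCard_eq_pow_finrank (K := F) (V := A)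

theorem ncard_dif {A B : Submodule F V} (h : A ≤ B) :
    {y | y ∈ B ∧ y ∉ A}.ncard = Nat.card F ^ dm B - Nat.card F ^ dm A := by
  rw [← ncard_sub, ← ncard_sub]
  exact Set.ncard_sdiff (s := (A : Set V)) (t := (B : Set V)) h

theorem dm_pair {x y : V} (hx : x ≠ 0) (hy : y ∉ F ∙ x) : dm (Submodule.span F {x, y}) = 2 := by
  classical
  have h1 : (F ∙ x) < Submodule.span F {x, y} :=
    SetLike.lt_iff_le_and_exists.2 ⟨Submodule.span_mono (by simp), y,
      Submodule.subset_span (by simp), hy⟩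
  have h2 := Submodule.finrank_lt_finrank_of_lt h1
  rw [finrank_span_singleton hx] at h2
  have h3 := finrank_span_finset_le_card (R := F) ({x, y} : Finset V)
  have h4 : ({x, y} : Finset V).card ≤ 2 := Finset.card_le_two
  rw [Finset.coe_pair] at h3
  exact le_antisymm (h3.trans h4) h2

theorem pair_le {x y : V} {A : Submodule F V} (hx : x ∈ A) :
    Submodule.span F {x, y} ≤ A ↔ y ∈ A := by
  rw [Submodule.span_le, Set.insert_subset_iff, Set.singleton_subset_iff]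
  exact and_iff_right hx

theorem pair_eq {x y : V} {M : Submodule F V} (hM : dm M = 2) (hx : x ≠ 0) (hy : y ∉ F ∙ x)
    (xM : x ∈ M) (yM : y ∈ M) : Submodule.span F {x, y} = M :=
  Submodule.eq_of_le_of_finrank_eq ((pair_le xM).2 yM) ((dm_pair hx hy).trans hM.symm)

variable {S : Sp F V} {K : Subgroup (V ≃ₗ[F] V)}

theorem isLn_pair {x y : V} (hx : x ≠ 0) (hy : y ∉ F ∙ x) (h : S.B x y = 0) :
    S.IsLn (Submodule.span F {x, y}) := by
  refine ⟨dm_pair hx hy, fun u hu v hv => ?_⟩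
  obtain ⟨a, b, rfl⟩ := Submodule.mem_span_pair.1 hu
  obtain ⟨c, d, rfl⟩ := Submodule.mem_span_pair.1 hv
  have h' : S.B y x = 0 := S.alt.isRefl _ _ h
  simp [h, h', S.alt.self_eq_zero]

theorem orth_smul {g : V ≃ₗ[F] V} (hg : g ∈ S.G) (A : Submodule F V) :
    S.B.orthogonal (g • A) = g • S.B.orthogonal A := by
  ext v
  rw [mem_smul, LinearMap.BilinForm.mem_orthogonal_iff, LinearMap.BilinForm.mem_orthogonal_iff]
  refine ⟨fun h n hn => ?_, fun h n hn => ?_⟩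
  · rw [← hg, g.apply_symm_apply]
    exact h _ (smul_mem_smul.2 hn)
  · rw [← g.apply_symm_apply n, ← g.apply_symm_apply v, hg]
    exact h _ (mem_smul.1 hn)

/-- Double counting of the pairs `(x, y)` with `y ∈ B x ∖ A x`. -/
theorem count (hK : K ≤ S.G) {A B : V → Submodule F V} {n : ℕ} {L : Submodule F V}
    (hL : S.IsLn L) (a1 : ∀ x, x ≠ 0 → x ∈ A x) (b1 : ∀ x, x ≠ 0 → x ∈ B x)
    (b2 : ∀ x, x ≠ 0 → ∀ y ∈ B x, S.B x y = 0)
    (ai : ∀ g ∈ K, ∀ x, x ≠ 0 → A (g x) = g • A x) (bi : ∀ g ∈ K, ∀ x, x ≠ 0 → B (g x) = g • B x)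
    (hn : ∀ x, x ≠ 0 → {y | y ∈ B x ∧ y ∉ A x}.ncard = n)
    (tr : ∀ x M, x ≠ 0 → x ∈ M → S.IsLn M → M ≤ B x → ¬ M ≤ A x → ∃ g ∈ K, g • L = M) :
    ∃ c, c < Nat.card F ^ 2 ∧ {x : V | x ≠ 0}.ncard * n =
      {M | ∃ g ∈ K, g • L = M}.ncard * (c * (Nat.card F ^ 2 - Nat.card F ^ 1)) := by
  have : Finite (Submodule F V) := Finite.of_injective _ SetLike.coe_injective
  let C : Submodule F V → Set V := fun M => {x | x ≠ 0 ∧ x ∈ M ∧ M ≤ B x ∧ ¬ M ≤ A x}
  let T : Set (V × V) := {p | p.1 ≠ 0 ∧ p.2 ∈ B p.1 ∧ p.2 ∉ A p.1}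
  have nm : ∀ x y, x ≠ 0 → y ∉ A x → y ∉ F ∙ x := fun x y hx hy h =>
    hy ((Submodule.span_singleton_le_iff_mem _ _).2 (a1 x hx) h)
  refine ⟨(C L).ncard, ?_, ?_⟩
  · rw [← hL.1, ← ncard_sub]
    exact Set.ncard_lt_ncard ⟨fun x hx => hx.2.1, fun h => (h L.zero_mem).1 rfl⟩
  rw [← ncard_fib T {x : V | x ≠ 0} Prod.fst n (fun p hp => hp.1) fun x hx => by
    rw [← hn x hx, ← Set.ncard_image_of_injective _ (Prod.mk_right_injective (β := V) x)]
    congr 1
    ext ⟨x', y⟩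
    constructor
    · rintro ⟨h, rfl⟩
      exact ⟨y, h.2, rfl⟩
    · rintro ⟨y', h, e⟩
      obtain ⟨rfl, rfl⟩ := Prod.mk.inj e
      exact ⟨⟨hx, h⟩, rfl⟩]
  refine ncard_fib T _ (fun p => Submodule.span F {p.1, p.2}) _ (fun p hp => ?_) ?_
  · exact tr p.1 _ hp.1 (Submodule.subset_span (by simp))
      (isLn_pair hp.1 (nm _ _ hp.1 hp.2.2) (b2 _ hp.1 _ hp.2.1)) ((pair_le (b1 _ hp.1)).2 hp.2.1)
      fun h => hp.2.2 ((pair_le (a1 _ hp.1)).1 h)
  rintro M ⟨g, hg, rfl⟩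
  have hM := hL.smul (hK hg)
  have e1 : (C (g • L)).ncard = (C L).ncard := by
    rw [← Set.ncard_image_of_injective (C L) g.injective]
    congr 1
    ext x
    obtain ⟨x, rfl⟩ := g.surjective x
    rw [g.injective.mem_set_image]
    by_cases hx : x = 0
    · simp [C, hx]
    · simp only [C, Set.mem_ofPred_eq, ai g hg x hx, bi g hg x hx, H71.P3.smul_le_smul, smul_mem_smul, Ne,
        EmbeddingLike.map_eq_zero_iff]
  rw [← e1]
  generalize g • L = M at hM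
  refine ncard_fib _ (C M) Prod.fst _ ?_ fun x hx => ?_
  · rintro p ⟨hp, rfl⟩
    exact ⟨hp.1, Submodule.subset_span (by simp), (pair_le (b1 _ hp.1)).2 hp.2.1,
      fun h => hp.2.2 ((pair_le (a1 _ hp.1)).1 h)⟩
  · rw [← hM.1, ← finrank_span_singleton (K := F) hx.1,
      ← ncard_dif ((Submodule.span_singleton_le_iff_mem _ _).2 hx.2.1),
      ← Set.ncard_image_of_injective _ (Prod.mk_right_injective (β := V) x)]
    congr 1
    ext ⟨x', y⟩
    constructor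
    · rintro ⟨⟨h, e⟩, rfl⟩
      exact ⟨y, ⟨e ▸ Submodule.subset_span (by simp), nm _ _ h.1 h.2.2⟩, rfl⟩
    · rintro ⟨y', h, e⟩
      obtain ⟨rfl, rfl⟩ := Prod.mk.inj e
      have e2 := pair_eq hM.1 hx.1 h.2 hx.2.1 h.1
      exact ⟨⟨⟨hx.1, hx.2.2.1 h.1, fun m => hx.2.2.2 (e2 ▸ (pair_le (a1 _ hx.1)).2 m)⟩, e2⟩, rfl⟩

/-- **W1** -/
theorem w1 : W1Stmt := by
  intro F V _ _ _ _ _ S K hK _ ⟨c2, h2⟩ ⟨c3, h3⟩ W w hW hw
  have : Finite (Submodule F V) := Finite.of_injective _ SetLike.coe_injective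
  obtain ⟨a, rfl⟩ : ∃ a, w = a + 2 := ⟨w - 2, by have := hW.two; omega⟩
  obtain ⟨b, hb⟩ : ∃ b, S.k = a + 3 + b := ⟨S.k - (a + 3), by omega⟩
  let U : ℕ → V → Submodule F V := fun i x =>
    if i = 0 then F ∙ x else if i = 1 then W x else if i = 2 then S.B.orthogonal (W x)
    else S.B.orthogonal (F ∙ x)
  let d : ℕ → ℕ := fun i =>
    if i = 0 then 1 else if i = 1 then a + 2 else if i = 2 then a + 4 + 2 * b else 2 * a + 5 + 2 * b
  have xW : ∀ x, x ≠ 0 → (F ∙ x) ≤ W x := fun x hx =>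
    (Submodule.span_singleton_le_iff_mem _ _).2 (hW.mem x hx)
  have u01 : ∀ x, x ≠ 0 → ∀ i < 3, U i x ≤ U (i + 1) x := fun x hx i hi => by
    interval_cases i
    · exact xW x hx
    · exact fun v hv u hu => hW.iso x hx u hu v hv
    · exact LinearMap.BilinForm.orthogonal_le (xW x hx)
  have mono : ∀ x, x ≠ 0 → ∀ i j, i ≤ j → j ≤ 3 → U i x ≤ U j x := fun x hx i j hij hj => by
    induction hij with
    | refl => exact le_rfl
    | step _ ih => exact (ih (by omega)).trans (u01 x hx _ (by omega))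
  have um : ∀ x, x ≠ 0 → ∀ i ≤ 3, x ∈ U i x := fun x hx i hi =>
    mono x hx 0 i (by omega) hi (Submodule.mem_span_singleton_self x)
  have ub : ∀ x, x ≠ 0 → ∀ i ≤ 3, ∀ y ∈ U i x, S.B x y = 0 := fun x hx i hi y hy =>
    mono x hx i 3 hi le_rfl hy x (Submodule.mem_span_singleton_self x)
  have ud : ∀ x, x ≠ 0 → ∀ i, dm (U i x) = d i := fun x hx i => by
    simp only [U, d]
    split_ifs
    · exact finrank_span_singleton hx
    · exact hW.dim x hx
    · rw [dm, LinearMap.BilinForm.finrank_orthogonal S.nd, S.dim, hb]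
      have := hW.dim x hx
      rw [dm] at this
      omega
    · rw [dm, LinearMap.BilinForm.finrank_orthogonal S.nd, S.dim, hb, finrank_span_singleton hx]
      omega
  have ui : ∀ i, ∀ g ∈ K, ∀ x, x ≠ 0 → U i (g x) = g • U i x := fun i g hg x hx => by
    simp only [U]
    split_ifs
    · exact (smul_span g x).symm
    · exact hW.inv g hg x hx
    · rw [hW.inv g hg x hx, orth_smul (hK hg)]
    · rw [← smul_span, orth_smul (hK hg)]
  have us : ∀ i x x', x ≠ 0 → x' ≠ 0 → (F ∙ x) = F ∙ x' → U i x = U i x' := fun i x x' hx hx' e => by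
    obtain ⟨c, rfl⟩ := Submodule.mem_span_singleton.1 (e ▸ Submodule.mem_span_singleton_self x)
    have hc : c ≠ 0 := fun h => hx (by rw [h, zero_smul])
    simp only [U, e, hW.smul c x' hc hx']
  have hq : 2 ≤ Nat.card F := Finite.one_lt_card
  have dl : ∀ i < 3, d i < d (i + 1) := fun i hi => by
    interval_cases i <;> simp [d] <;> omega
  have : Nontrivial V := Module.nontrivial_of_finrank_pos (R := F) (by rw [S.dim, hb]; omega)
  obtain ⟨x0, h0⟩ := exists_ne (0 : V)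
  have ex : ∀ i : Fin 3, ∃ L, S.IsLn L ∧ x0 ∈ L ∧ L ≤ U (i + 1) x0 ∧ ¬ L ≤ U i x0 := fun i => by
    obtain ⟨y, hy, ny⟩ := SetLike.exists_of_lt (Submodule.lt_of_le_of_finrank_lt_finrank
      (u01 x0 h0 i i.2) (by have := dl i i.2; rwa [← ud x0 h0, ← ud x0 h0] at this))
    exact ⟨Submodule.span F {x0, y}, isLn_pair h0 (fun h => ny (mono x0 h0 0 i (by omega) i.2.le h))
      (ub x0 h0 _ i.2 y hy), Submodule.subset_span (by simp), (pair_le (um x0 h0 _ i.2)).2 hy,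
      fun h => ny ((pair_le (um x0 h0 _ i.2.le)).1 h)⟩
  choose L l1 l2 l3 l4 using ex
  have fl : ∀ x M, x ≠ 0 → x ∈ M → S.IsLn M → S.IsFl (F ∙ x) M := fun x M hx hM l =>
    ⟨finrank_span_singleton hx, l, (Submodule.span_singleton_le_iff_mem _ _).2 hM⟩
  have key : ∀ (i j : Fin 3) x M, x ≠ 0 → x ∈ M → S.IsLn M → M ≤ U (i + 1) x → ¬ M ≤ U i x →
      c3 (F ∙ x0) (L j) = c3 (F ∙ x) M → j = i ∧ ∃ g ∈ K, g • L j = M := by
    intro i j x M hx hM l m1 m2 e
    obtain ⟨g, hg, e1, e2⟩ := h3 _ _ _ _ (fl x0 _ h0 (l2 j) (l1 j)) (fl x M hx hM l) e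
    refine ⟨?_, g, hg, e2⟩
    have e3 : ∀ k, U k x = g • U k x0 := fun k => by
      rw [← ui k g hg x0 h0]
      exact us k _ _ hx (by simpa using h0) (by rw [← e1, smul_span])
    rw [← e2, e3, H71.P3.smul_le_smul] at m1 m2
    by_contra hne
    rcases lt_or_gt_of_ne (fun h => hne (Fin.ext h) : (j : ℕ) ≠ i) with h | h
    · exact m2 ((l3 j).trans (mono x0 h0 _ _ h i.2.le))
    · exact l4 j (m1.trans (mono x0 h0 _ _ h j.2.le))
  have inj : Function.Injective fun j : Fin 3 => c3 (F ∙ x0) (L j) := fun j i e =>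
    (key i j x0 (L i) h0 (l2 i) (l1 i) (l3 i) (l4 i) e).1
  have tr : ∀ (i : Fin 3) x M, x ≠ 0 → x ∈ M → S.IsLn M → M ≤ U (i + 1) x → ¬ M ≤ U i x →
      ∃ g ∈ K, g • L i = M := fun i x M hx hM l m1 m2 => by
    obtain ⟨j, e⟩ := Finite.injective_iff_surjective.1 inj (c3 (F ∙ x) M)
    obtain ⟨rfl, h⟩ := key i j x M hx hM l m1 m2 e
    exact h
  have N0 : 0 < {x : V | x ≠ 0}.ncard := (Set.ncard_pos (Set.toFinite _)).2 ⟨x0, h0⟩
  have two : ∀ i j : Fin 3, c2 (L i) = c2 (L j) → ∃ c0 c1, 0 < c0 ∧ 0 < c1 ∧ c1 < Nat.card F ^ 2 ∧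
      (Nat.card F ^ d (i + 1) - Nat.card F ^ d i) * c1 =
        (Nat.card F ^ d (j + 1) - Nat.card F ^ d j) * c0 := fun i j e => by
    obtain ⟨g, hg, eg⟩ := h2 _ _ (l1 i) (l1 j) e
    have cnt : ∀ k : Fin 3, (∀ x M, x ≠ 0 → x ∈ M → S.IsLn M → M ≤ U (k + 1) x → ¬ M ≤ U k x →
        ∃ g ∈ K, g • L i = M) → ∃ c, 0 < c ∧ c < Nat.card F ^ 2 ∧
        {x : V | x ≠ 0}.ncard * (Nat.card F ^ d (k + 1) - Nat.card F ^ d k) =
        {M | ∃ g ∈ K, g • L i = M}.ncard * (c * (Nat.card F ^ 2 - Nat.card F ^ 1)) := fun k hk => by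
      obtain ⟨c, h1, h4⟩ := count hK (l1 i) (fun x hx => um x hx k k.2.le)
        (fun x hx => um x hx (k + 1) k.2) (fun x hx => ub x hx (k + 1) k.2) (ui k) (ui (k + 1))
        (fun x hx => by rw [ncard_dif (u01 x hx k k.2), ud x hx, ud x hx]) hk
      refine ⟨c, Nat.pos_of_ne_zero fun h => ?_, h1, h4⟩
      have := Nat.mul_pos N0 (Nat.sub_pos_of_lt (Nat.pow_lt_pow_right hq (dl k k.2)))
      rw [h4, h] at this
      simp at this
    obtain ⟨c0, p0, -, e0⟩ := cnt i (tr i)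
    obtain ⟨c1, p1, r1, e1⟩ := cnt j fun x M hx hM l m1 m2 => by
      obtain ⟨g', hg', e'⟩ := tr j x M hx hM l m1 m2
      exact ⟨g' * g, mul_mem hg' hg, by rw [mul_smul, eg, e']⟩
    refine ⟨c0, c1, p0, p1, r1, Nat.eq_of_mul_eq_mul_left N0 ?_⟩
    rw [← mul_assoc, ← mul_assoc, e0, e1]
    ring
  have pg : ∀ u v w : Fin 2, u = v ∨ u = w ∨ v = w := by decide
  rcases pg (c2 (L 0)) (c2 (L 1)) (c2 (L 2)) with e | e | e <;>
    obtain ⟨c0, c1, p0, p1, r1, e1⟩ := two _ _ e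
  · exact (arith (a := a) (b := b) hq p0 p1 r1).1 e1
  · exact (arith (a := a) (b := b) hq p0 p1 r1).2.1 e1
  · exact (arith (a := a) (b := b) hq p0 p1 r1).2.2 e1

end Cfsg.Agent.H10.P3W1
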