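import Cfsg.Agent.H42.PcDefs

/-! Project PC, piece NF: no fusion in the coset `y T` beyond `T`. -/

set_option autoImplicit false

namespace Cfsg.Agent.H10.PcNf

open Subgroup Cfsg.Agent.H42.Pc

universe u

/-- conjugation by `S` on the `2`-elements of the coset `y S` -/
@[reducible] def act {G : Type u} [Group G] (S : Subgroup G) [hS : S.Normal] (y : G) :
    MulAction S {y' : G // y⁻¹ * y' ∈ S ∧ Two y'} where
  smul s x := ⟨s * x.1 * (s : G)⁻¹, by
    have := mul_mem (mul_mem (hS.conj_mem' _ s.2 y) x.2.1) (inv_mem s.2)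
    rwa [show y⁻¹ * s * y * (y⁻¹ * x.1) * (s : G)⁻¹ = y⁻¹ * (s * x.1 * (s : G)⁻¹) by group] at this,
    by
      obtain ⟨k, hk⟩ := x.2.2
      exact ⟨k, by rw [conj_pow, hk, mul_one, mul_inv_cancel]⟩⟩
  one_smul x := Subtype.ext (show ((1 : S) : G) * x.1 * ((1 : S) : G)⁻¹ = x.1 by simp)
  mul_smul a b x := Subtype.ext (show ((a * b : S) : G) * x.1 * ((a * b : S) : G)⁻¹ =
    a * (b * x.1 * (b : G)⁻¹) * (a : G)⁻¹ by rw [coe_mul]; group)

theorem nf (cnt : CntStmt.{u}) (odd : OddStmt.{u}) (uni : UniStmt.{u}) (orb : OrbStmt.{u})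
    (syl : SylStmt.{u}) : NfStmt.{u} := by
  intro G _ _ S hS T y h1 sy yN yS yy s hs hm
  have cj : ∀ w ∈ T, y⁻¹ * w * y ∈ T := fun w hw => (mem_normalizer_iff''.1 yN w).1 hw
  have two : ∀ x : G, y⁻¹ * x ∈ T → Two x := fun x hx => by
    have m : x * x ∈ T := by
      have := mul_mem (mul_mem yy (cj _ hx)) hx
      rwa [show y * y * (y⁻¹ * (y⁻¹ * x) * y) * (y⁻¹ * x) = x * x by group] at this
    obtain ⟨k, hk⟩ := sy.2.1 ⟨_, m⟩
    refine ⟨k + 1, ?_⟩
    rw [pow_succ', pow_mul, pow_two]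
    exact congrArg Subtype.val hk
  have y1 : y⁻¹ * y ∈ T := by rw [inv_mul_cancel]; exact one_mem _
  have ty : Two y := two y y1
  have cc : ∀ x : G, y⁻¹ * x ∈ S → Two x → CC y x := fun x hx tx => by
    refine h1 y x ty tx yS (fun m => yS ?_) (sy.1 yy) ?_
    · have := mul_mem m (inv_mem hx)
      rwa [show x * (y⁻¹ * x)⁻¹ = y by group] at this
    · have := mul_mem (mul_mem (sy.1 yy) (hS.conj_mem' _ hx y)) hx
      rwa [show y * y * (y⁻¹ * (y⁻¹ * x) * y) * (y⁻¹ * x) = x * x by group] at this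
  letI := act S y
  have sm : ∀ (a : S) (x : {y' : G // y⁻¹ * y' ∈ S ∧ Two y'}),
      (a • x).1 = a * x.1 * (a : G)⁻¹ := fun _ _ => rfl
  have key := orb S {y' : G // y⁻¹ * y' ∈ S ∧ Two y'} (T.subgroupOf S) {x | y⁻¹ * x.1 ∈ T}
    (Nat.card ↥(S ⊓ centralizer {y})) (lo S y)
    (sy.2.1.comap_of_injective S.subtype S.subtype_injective) (odd G S y)
    (cnt G S y _ (sy.1 yy) fun x hx tx => (uni G S y x (cc x hx tx)).1)
    (fun x => by
      rw [← (uni G S y x.1 (cc x.1 x.2.1 x.2.2)).2,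
        ← Nat.card_congr (subgroupOfEquivOfLe (inf_le_left : S ⊓ centralizer {x.1} ≤ S)).toEquiv]
      congr 3
      ext a
      rw [MulAction.mem_stabilizer_iff, Subtype.ext_iff, sm, mem_subgroupOf, mem_inf,
        mem_centralizer_singleton_iff, mul_inv_eq_iff_eq_mul]
      exact ⟨fun h => ⟨a.2, h⟩, fun h => h.2⟩)
    (by
      rw [Nat.card_congr (subgroupOfEquivOfLe sy.1).toEquiv]
      refine Nat.card_congr ⟨fun x => ⟨y⁻¹ * x.1.1, x.2⟩, fun w => ⟨⟨y * w, ?_, two _ ?_⟩, ?_⟩,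
        fun x => ?_, fun w => ?_⟩
      · rw [inv_mul_cancel_left]; exact sy.1 w.2
      · rw [inv_mul_cancel_left]; exact w.2
      · show y⁻¹ * (y * w) ∈ T
        rw [inv_mul_cancel_left]; exact w.2
      · exact Subtype.ext (Subtype.ext (mul_inv_cancel_left _ _))
      · exact Subtype.ext (inv_mul_cancel_left _ _))
    (fun x hx t ht => by
      have := mul_mem (mul_mem (cj _ (mem_subgroupOf.1 ht)) hx) (inv_mem (mem_subgroupOf.1 ht))
      show y⁻¹ * (t * x.1 * (t : G)⁻¹) ∈ T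
      rwa [show y⁻¹ * t * y * (y⁻¹ * x.1) * (t : G)⁻¹ = y⁻¹ * (t * x.1 * (t : G)⁻¹) by group] at this)
    (fun x => by
      obtain ⟨a, ha, e⟩ := syl G S T y sy (by rw [normalizer_eq_top]; trivial) yN ty x.1 x.2.1 x.2.2
      exact ⟨⟨a, ha⟩, e⟩)
    ⟨y, sy.1 y1, ty⟩ y1 ⟨s, hs⟩ hm
  obtain ⟨t, ht, e⟩ := key
  exact ⟨t, mem_subgroupOf.1 ht, congrArg Subtype.val e⟩

end Cfsg.Agent.H10.PcNf
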