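import Cfsg.Agent.H54.RfKitP
import Cfsg.Agent.H87.Transfer

/-! # Standard subgroups of type `²F₄(q)`: the centralizer of `t` and the final transfer -/

set_option autoImplicit false

namespace Cfsg.Agent.H10.RfE

open Cfsg Cfsg.Agent.H15.O8 Cfsg.Agent.H39 Cfsg.Agent.H36.O8T Cfsg.Agent.H54.RF Subgroup
open Cfsg.Agent.H83 (IsSylowIn cj)
open scoped commutatorElement

universe u v

section Gen

variable {G : Type*} [Group G]

theorem mem_ext {N : Subgroup G} {t : G} (tt : t * t = 1) (hn : t ∈ normalizer (N : Set G))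
    {x : G} (hx : x ∈ N ⊔ zpowers t) : x ∈ N ∨ x * t ∈ N := by
  obtain ⟨n, hn', a, ⟨k, rfl⟩, rfl⟩ := (H83.mem_sup_left_norm (zpowers_le.2 hn)).1 hx
  have h2 : t ^ (2 : ℤ) = 1 := by rw [zpow_two, tt]
  rcases Int.even_or_odd' k with ⟨m, rfl | rfl⟩
  · left
    simpa only [zpow_mul, h2, one_zpow, mul_one] using hn'
  · right
    simpa only [zpow_add_one, zpow_mul, h2, one_zpow, one_mul, mul_assoc, tt, mul_one] using hn'

theorem pow_mem_of {N : Subgroup G} {x c : G} (hx : x ∈ N) (hc : c ∈ normalizer (N : Set G))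
    (n : ℕ) : (x * c) ^ n * (c ^ n)⁻¹ ∈ N := by
  induction n with
  | zero => simp
  | succ n ih =>
    have : (x * c) ^ (n + 1) * (c ^ (n + 1))⁻¹ = x * (c * ((x * c) ^ n * (c ^ n)⁻¹) * c⁻¹) := by
      rw [pow_succ', pow_succ']; group
    rw [this]
    exact mul_mem hx ((mem_normalizer_iff.1 hc _).1 ih)

theorem card_le_two [Finite G] {P A : Subgroup G} {t : G} (h : ∀ g ∈ P, g ∈ A ∨ g * t ∈ A) :
    Nat.card P ≤ 2 * Nat.card A := by
  classical
  let f : P → Bool × A := fun g =>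
    if hg : (g : G) ∈ A then (true, ⟨g, hg⟩) else (false, ⟨g * t, (h g g.2).resolve_left hg⟩)
  have hf : Function.Injective f := by
    intro a b e
    by_cases ha : (a : G) ∈ A <;> by_cases hb : (b : G) ∈ A <;>
      simp only [f, ha, hb, dif_pos, dif_neg, not_false_eq_true, Prod.mk.injEq, Subtype.mk.injEq,
        true_and, mul_left_inj] at e
    · exact Subtype.ext e
    · exact absurd e.1 (by simp)
    · exact absurd e.1 (by simp)
    · exact Subtype.ext e
  have := Nat.card_le_card_of_injective f hf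
  rwa [Nat.card_prod, Nat.card_eq_fintype_card (α := Bool), Fintype.card_bool] at this

theorem mem_odd {x : G} (h : Odd (orderOf x)) : x ∈ oddGenerated (⊤ : Subgroup G) :=
  subset_closure ⟨mem_top x, h⟩

theorem odd_normal : (oddGenerated (⊤ : Subgroup G)).Normal := by
  refine ⟨fun x hx g => ?_⟩
  induction hx using closure_induction with
  | mem x hx => exact mem_odd (by rw [H83.orderOf_conj']; exact hx.2)
  | one => simp
  | mul x y _ _ h1 h2 =>
    have := mul_mem h1 h2
    rwa [show g * x * g⁻¹ * (g * y * g⁻¹) = g * (x * y) * g⁻¹ by group] at this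
  | inv x _ h =>
    have := inv_mem h
    rwa [show (g * x * g⁻¹)⁻¹ = g * x⁻¹ * g⁻¹ by group] at this

theorem perfect_le [Finite G] {N : Subgroup G} (h : ⁅N, N⁆ = N) :
    N ≤ oddGenerated (⊤ : Subgroup G) := by
  have := odd_normal (G := G)
  have : Fact (Nat.Prime 2) := ⟨Nat.prime_two⟩
  have h2 : IsPGroup 2 (G ⧸ oddGenerated (⊤ : Subgroup G)) := fun x => by
    obtain ⟨g, rfl⟩ := QuotientGroup.mk'_surjective _ x
    obtain ⟨a, -, b, -, ⟨k, hk⟩, hb, rfl⟩ := two_odd g
    refine ⟨k, ?_⟩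
    have e : QuotientGroup.mk' (oddGenerated (⊤ : Subgroup G)) b = 1 :=
      (QuotientGroup.eq_one_iff b).2 (mem_odd hb)
    rw [map_mul, e, mul_one, ← map_pow, hk, map_one]
  have := h2.isNilpotent
  have h3 : N.map (QuotientGroup.mk' (oddGenerated (⊤ : Subgroup G))) = ⊥ := by
    by_contra e
    have := Group.IsSolvable.commutator_lt_of_ne_bot e
    rw [← map_commutator, h] at this
    exact lt_irrefl _ this
  rwa [Subgroup.map_eq_bot_iff, QuotientGroup.ker_mk'] at h3

end Gen

theorem endS : EndStmt.{u} := by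
  intro G _ _ N t tt cn two hE
  have : Fact (Nat.Prime 2) := ⟨Nat.prime_two⟩
  have tN : t ∈ normalizer (N : Set G) := cn t (Commute.refl t)
  have t0 : t ∉ N := by simpa using hE.e2 1
  have t2 : t ^ 2 ^ 1 = 1 := by rw [pow_one, sq, tt]
  have XN : N ⊔ zpowers t ≤ normalizer (N : Set G) := sup_le le_normalizer (zpowers_le.2 tN)
  obtain ⟨S, hS, htS⟩ := H83.exists_isSylowIn_ge (le_sup_right : zpowers t ≤ N ⊔ zpowers t)
    (H83.isPGroup_zpowers t2)
  have tS : t ∈ S := htS (mem_zpowers t)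
  have hS' : IsSylowIn 2 S ⊤ := by
    refine ⟨le_top, hS.isPGroup, fun P _ hP hle => ?_⟩
    by_contra hne
    obtain ⟨g, ⟨gP, gN⟩, gS⟩ := SetLike.exists_of_lt
      (H83.lt_inf_normalizer hP (lt_of_le_of_ne hle (Ne.symm hne)))
    obtain ⟨k, hk⟩ := H83.isPGroup_iff.1 hP g gP
    have h1 : g * t * g⁻¹ * t ∈ N :=
      (mem_ext tt tN (hS.le ((mem_normalizer_iff.1 gN t).1 tS))).resolve_left (hE.e2 g)
    obtain ⟨x, hx, e⟩ := hE.e3 g h1
    have hc : Commute (x⁻¹ * g) t := by
      rw [← conj_eq_iff]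
      calc _ = x⁻¹ * (g * t * g⁻¹) * x := by group
        _ = t := by rw [e]; group
    have h2 := pow_mem_of hx (cn _ hc) (2 ^ k)
    rw [mul_inv_cancel_left, hk, one_mul, inv_mem_iff] at h2
    obtain ⟨a, ha, b, hb, a2, bo, e2⟩ := two_odd (x⁻¹ * g)
    have bN : b ∈ N := by
      refine H83.mem_of_ppow_mem (p := 2) (k := k) ?_ (Nat.coprime_two_right.2 bo)
      obtain ⟨m, rfl⟩ := hb
      rw [← zpow_natCast, ← zpow_mul, mul_comm, zpow_mul, zpow_natCast]
      exact zpow_mem h2 m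
    have gX : g ∈ N ⊔ zpowers t := by
      rw [show g = x * (a * b) by rw [← e2, mul_inv_cancel_left]]
      exact mul_mem (mem_sup_left hx) (mul_mem (two a (comm_of_zpowers ha hc) a2) (mem_sup_left bN))
    exact gS (hS.mem_of_norm gX hk gN)
  have hi : Odd S.index := by
    have := hS'.not_dvd_relIndex
    rw [relIndex_top_right] at this
    exact Nat.odd_iff.2 (by omega)
  have hM : (S ⊓ N).relIndex S = 2 :=
    relIndex_eq_two_iff_exists_notMem_and.2 ⟨t, tS, fun h => t0 h.2, fun b hb =>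
      (mem_ext tt tN (hS.le hb)).symm.imp (fun h => ⟨mul_mem hb tS, h⟩) fun h => ⟨hb, h⟩⟩
  obtain ⟨K, -, Ki, tK⟩ := H87.thompson_transfer_involution hi hM (x := t) (by rw [sq, tt])
    fun g h => hE.e2 g h.2
  have OK : oddGenerated (⊤ : Subgroup G) ≤ K := (closure_le _).2 fun x hx =>
    H83.mem_of_pow_mem_of_coprime (sq_mem_of_index_two Ki x) (Nat.coprime_two_right.2 hx.2)
  have NO := perfect_le hE.perf
  refine ⟨NO, ?_⟩
  have := odd_normal (G := G)
  have h1 := hS'.inf_normal (N := oddGenerated (⊤ : Subgroup G)) le_top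
    (by rw [normalizer_eq_top])
  have h2 : S ⊓ oddGenerated (⊤ : Subgroup G) ≤ N := fun s hs =>
    (mem_ext tt tN (hS.le hs.1)).resolve_right fun h =>
      tK ((K.mul_mem_cancel_left (OK hs.2)).1 (OK (NO h)))
  have h3 := h1.not_dvd_relIndex
  rw [← relIndex_mul_relIndex _ N _ h2 NO] at h3
  exact Nat.odd_iff.2 (by
    by_contra e
    exact h3 (Dvd.dvd.mul_left (by omega) _))

theorem nrm : NrmStmt.{u, v} := by
  intro K _ _ T G _ _ M t h p hp
  have : Fact (Nat.Prime 2) := ⟨Nat.prime_two⟩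
  have two : ∀ g, Commute g t → Two g → g ∈ M.X ⊔ zpowers t := fun g hg h2 => by
    obtain ⟨l, hl, -, rfl | rfl⟩ := h.two_mem hg h2
    · exact mem_sup_left hl
    · exact mul_mem (mem_sup_left hl) (mem_sup_right (mem_zpowers t))
  have tN : t ∈ normalizer (M.X : Set G) := h.ct t (Commute.refl t)
  refine ⟨fun g hg => ?_, two, fun P hP h2 => ?_⟩
  · obtain ⟨l, hl, g', hg', rfl⟩ := h.syl.frattini (h.ct g hg)
    have XG : M.X ≤ G0 M p := le_sup_left
    have pG : ∀ a, p a ∈ G0 M p := fun a => mem_sup_right (subset_closure ⟨a, rfl⟩)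
    refine mul_mem (le_normalizer (XG hl)) ?_
    have ht : Commute g' t := by simpa using (h.tX hl).inv_left.mul_left hg
    obtain ⟨β, hβ⟩ := exists_aut M hg'
    have key : ∀ a, g' * p a * g'⁻¹ ∈ G0 M p := fun a => by
      by_cases a0 : a = 0
      · rw [a0, hp.f4.zero]; simp
      have hz : β (x4 T a) ∈ Z T := cQ _ fun u _ => by
        rw [← β.apply_symm_apply u, ← map_mul, ← map_mul, cZ _ (x4_mem a)]
      have e := eq_x4 hz
      generalize (β (x4 T a)).a4 = a' at e
      obtain ⟨w, -, -, hw⟩ := h.pair (i := p a') (j := g' * p a * g'⁻¹) (v := x4 T a') W_le_Q cenQ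
        (hp.f4.sq a') (conj_sq (hp.f4.sq a) g') (hp.mov a') (by
          calc _ = g' * (p a * (g'⁻¹ * t * g'⁻¹⁻¹) * (p a)⁻¹) * g'⁻¹ := by group
            _ = (g' * t * g'⁻¹) * (g' * M.φ (x4 T a) * g'⁻¹) := by
              rw [conj_eq_iff.2 ht.inv_left, hp.mov]; group
            _ = _ := by rw [conj_eq_iff.2 ht, hβ, e])
        (fun k => x4_ne a0 (β.injective (by rw [e, k, map_one]))) (fun u _ => hp.pφ a' u)
        (fun u _ => by
          have := comm_conj (hp.pφ a (β.symm u)) g'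
          rwa [hβ, β.apply_symm_apply] at this) (hp.odd a')
      rw [hw]
      exact mul_mem (pG a') (XG (φX M w))
    have hle : cj g' (G0 M p) ≤ G0 M p := by
      rw [G0, H83.cj_sup, H83.cj_eq_self (h.ct g' ht), H83.cj_closure]
      refine sup_le XG ((closure_le _).2 ?_)
      rintro _ ⟨_, ⟨a, rfl⟩, rfl⟩
      exact key a
    exact mem_normalizer_fintype fun k hk => hle (H83.conj_mem_cj hk)
  · have tP : zpowers t ≤ normalizer (P : Set G) :=
      zpowers_le.2 (centralizer_le_normalizer _ fun g hg => (hP g hg).eq)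
    have hQ : IsPGroup 2 (P ⊔ zpowers t : Subgroup G) := by
      rw [sup_comm]
      exact H83.isPGroup_sup (H83.isPGroup_zpowers (k := 1) (by rw [pow_one, sq, h.tt])) h2 tP
    have h1 := card_le_two (P := P) (A := (P ⊔ zpowers t) ⊓ M.X) (t := t) fun g hg =>
      (mem_ext h.tt tN (two g (hP g hg) (H83.isPGroup_iff.1 h2 g hg))).imp
        (fun k => ⟨mem_sup_left hg, k⟩)
        fun k => ⟨mul_mem (mem_sup_left hg) (mem_sup_right (mem_zpowers t)), k⟩
    have h3 := h.syl.card_le (P := (P ⊔ zpowers t) ⊓ M.X) inf_le_right hQ.to_inf_left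
    rw [← Nat.card_congr (MonoidHom.ofInjective M.inj).toEquiv, card_U] at h3
    omega

end Cfsg.Agent.H10.RfE
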