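import Mathlib
import Cfsg.Agent.H74.RuDefs

/-! Project RU, piece FRM: existence and conjugacy of frames. -/

set_option autoImplicit false

namespace Cfsg.Agent.H10.RuFrm

open Cfsg Module Cfsg.Agent.H31 Cfsg.Agent.H74.Ru

/-- The antidiagonal form. -/
def adg {F : Type} [Field F] (σ : F →+* F) (n : ℕ) : (Fin n → F) →ₛₗ[σ] (Fin n → F) →ₗ[F] F :=
  LinearMap.mk₂'ₛₗ σ (RingHom.id F) (fun x y => ∑ i, σ (x i) * y i.rev)
    (fun x x' y => by simp [add_mul, Finset.sum_add_distrib])
    (fun c x y => by simp [Finset.mul_sum, mul_assoc])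
    (fun x y y' => by simp [mul_add, Finset.sum_add_distrib])
    (fun c x y => by simp [Finset.mul_sum, mul_left_comm])

theorem eqns : True := by
  have := @adg.eq_1
  trivial

theorem adg_apply {F : Type} [Field F] (σ : F →+* F) (n : ℕ) (x y : Fin n → F) :
    adg σ n x y = ∑ i, σ (x i) * y i.rev := rfl

theorem adg_single {F : Type} [Field F] (σ : F →+* F) (n : ℕ) (x : Fin n → F) (j : Fin n) :
    adg σ n x (Pi.single j 1) = σ (x j.rev) := by
  rw [adg_apply, Finset.sum_eq_single j.rev (fun b _ hb => by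
    rw [Pi.single_eq_of_ne (fun e => hb (by rw [← e, Fin.rev_rev])), mul_zero]) (by simp)]
  simp

theorem adg_herm {F : Type} [Field F] {σ : F →+* F} (h : IsInvol σ) (n : ℕ) : IsHerm (adg σ n) :=
  ⟨⟨h, fun x y => by
    rw [adg_apply, adg_apply, map_sum, ← Equiv.sum_comp Fin.revPerm]
    simp [h.invol, mul_comm]⟩, fun x hx => funext fun j => by
    have := hx (Pi.single j.rev 1)
    rwa [adg_single, Fin.rev_rev, map_eq_zero] at this⟩

theorem exists_fr {F V : Type} [Field F] [Fintype F] [AddCommGroup V] [Module F V]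
    [FiniteDimensional F V] (S : Un F V) : ∃ v, S.Fr v := by
  obtain ⟨e, he⟩ := (adg_herm S.herm.inv S.n).exists_isometry S.herm (by simp [S.dim])
  refine ⟨fun i => e (Pi.single i 1), fun i j => ?_⟩
  rw [he, adg_single]
  by_cases h : j = i.rev
  · simp [h]
  · rw [if_neg h, Pi.single_eq_of_ne (fun e => h (by rw [← e, Fin.rev_rev])), map_zero]

theorem frm (ka : KaStmt) : FrmStmt := by
  intro F V _ _ _ _ _ S
  have one : ∀ s (hs : 2 * s ≤ S.n) (e : Fin s → V), LinearIndependent F e →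
      (∀ i j, S.B (e i) (e j) = 0) → ∃ v, S.Fr v ∧ ∀ i : Fin s, v ⟨i.val, by omega⟩ = e i := by
    intro s hs e he h0
    obtain ⟨v, hv⟩ := exists_fr S
    obtain ⟨-, -, li, im, -⟩ := ka S v hv
    obtain ⟨g, hg, e1⟩ := S.herm.witt_family
      (li.comp (fun i : Fin s => (⟨i.val, by omega⟩ : Fin S.n)) fun i j e =>
        Fin.ext (by simpa using e)) he fun i j => by
      rw [h0, Function.comp_apply, Function.comp_apply, hv, if_neg fun e => ?_]
      have := congrArg Fin.val e
      simp only [Fin.val_rev] at this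
      omega
    exact ⟨_, im g hg, e1⟩
  refine ⟨one, fun x y h => ?_, fun v w hv hw => ?_⟩
  · obtain ⟨h1, h2, h3, h4, h5⟩ := h
    obtain ⟨v, hv, e⟩ := one 2 (by have := S.hn; omega) ![x, y]
      (LinearIndependent.pair_iff' h4 |>.2 fun a e => h5 (e ▸ Submodule.smul_mem _ a
        (Submodule.mem_span_singleton_self x))) (by
      have h6 : S.B y x = 0 := by rw [← S.herm.symm, h3, map_zero]
      intro i j
      fin_cases i <;> fin_cases j <;> simpa)
    exact ⟨v, hv, e 0, e 1⟩
  · obtain ⟨g, hg, e⟩ := S.herm.witt_family (ka S v hv).2.2.1 (ka S w hw).2.2.1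
      fun i j => (hv i j).trans (hw i j).symm
    obtain ⟨a, ha, e1⟩ := S.herm.inv.exists_div_eq (S.herm.det_norm (inv_mem hg))
    have n0 : S.i0 ≠ S.i0.rev := fun e => by
      have := congrArg Fin.val e
      have := S.hn
      simp only [Fin.val_rev, Un.i0] at *
      omega
    obtain ⟨k, hk, k1, k2, k3, k4⟩ := S.herm.toIsHermSymm.exists_hypDiag (e := w S.i0)
      (f := w S.i0.rev) (by rw [hw, if_neg n0]) (by rw [hw, Fin.rev_rev, if_neg n0.symm])
      (by rw [hw, if_pos rfl]) ha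
    refine ⟨k * g, mem_sisom'.2 ⟨mul_mem hk hg, ?_⟩, fun i => ?_⟩
    · rw [LinearEquiv.coe_toLinearMap_mul, map_mul, k1, ← e1, ← map_mul,
        ← LinearEquiv.coe_toLinearMap_mul, inv_mul_cancel]
      simp
    · rw [LinearEquiv.mul_apply, e]
      by_cases h0 : i = S.i0
      · exact ⟨Units.mk0 a ha, by rw [h0, k2]; rfl⟩
      by_cases h1 : i = S.i0.rev
      · exact ⟨Units.mk0 _ (inv_ne_zero ((map_ne_zero S.σ).2 ha)), by rw [h1, k3]; rfl⟩
      · exact ⟨1, by rw [k4, hw, hw, Fin.rev_rev, if_neg h0, if_neg h1]; simp⟩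

end Cfsg.Agent.H10.RuFrm
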