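import Cfsg.Agent.H97.U4Defs

/-! Project U4F, piece W4: the reflections of `SU₂(q)` lie in `Γ`. -/

set_option autoImplicit false

namespace Cfsg.Agent.H10.U4W

open Cfsg.Agent.H97 Cfsg.Agent.H97.U4 Subgroup
open Cfsg.Agent.H97.U5 (Hm)

universe u

variable {K : Type u} [Field K] {T : Hm K}

theorem lin_zero {a b : K} (h : ∀ v, a * v + b * T.σ v = 0) : a = 0 ∧ b = 0 := by
  have h1 := h 1
  have h2 := h T.om
  rw [map_one] at h1
  have hb : b * T.ep = 0 := by simp only [Hm.ep]; linear_combination T.om * h1 - h2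
  have hb0 := (mul_eq_zero.1 hb).resolve_right T.ep_ne
  exact ⟨by rw [hb0] at h1; linear_combination h1, hb0⟩

/-- an additive map which is linear over the fixed field -/
theorem exists_lin (η : K → K) (h1 : ∀ x y, η (x + y) = η x + η y)
    (h2 : ∀ f x, T.σ f = f → η (f * x) = f * η x) : ∃ s ρ, ∀ x, η x = s * x + ρ * T.σ x := by
  have he := T.ep_ne
  have e : T.om = T.ep + T.σ T.om := by simp [Hm.ep]
  refine ⟨(η T.om - T.σ T.om * η 1) / T.ep, (T.om * η 1 - η T.om) / T.ep, fun x => ?_⟩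
  have hx : x = (T.om * T.σ x - T.σ T.om * x) / T.ep * 1 + (x - T.σ x) / T.ep * T.om := by
    field_simp; linear_combination (-x) * e
  have f1 : T.σ ((T.om * T.σ x - T.σ T.om * x) / T.ep) = (T.om * T.σ x - T.σ T.om * x) / T.ep := by
    simp only [map_div₀, map_sub, map_mul, T.inv, T.σ_ep]; field_simp; ring
  have f2 : T.σ ((x - T.σ x) / T.ep) = (x - T.σ x) / T.ep := by
    simp only [map_div₀, map_sub, T.inv, T.σ_ep]; field_simp; ring
  conv_lhs => rw [hx, h1, h2 _ _ f1, h2 _ _ f2]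
  field_simp; ring

theorem one_add_ne {s c : K} (h : s ≠ -c⁻¹) : 1 + s * c ≠ 0 := fun e => by
  have hc : c ≠ 0 := by rintro rfl; simp at e
  exact h (by field_simp; linear_combination e)

variable {p : ℕ} {Γ : Subgroup (Equiv.Perm (W K))}

theorem map_zero' (w : WG T p Γ) {g : Equiv.Perm (W K)} (hg : g ∈ Γ) : g 0 = 0 := by
  have := w.add g hg 0 0
  rw [add_zero] at this
  exact left_eq_add.1 this

omit [Field K] in
theorem ai (g : Equiv.Perm (W K)) (x : W K) : g (g⁻¹ x) = x := g.apply_symm_apply x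

omit [Field K] in
theorem ia (g : Equiv.Perm (W K)) (x : W K) : g⁻¹ (g x) = x := g.symm_apply_apply x

theorem snd_zero {g : Equiv.Perm (W K)} (r : Gr T g 0) {x : W K} (h : (g⁻¹ x).1 = 0) : x.2 = 0 := by
  obtain ⟨y, hy⟩ := (r x).1 ⟨(g⁻¹ x).2, by
    rw [show ((0 : K), (g⁻¹ x).2) = g⁻¹ x from Prod.ext h.symm rfl, ai]⟩
  simp [hy]

/-- the conjugates of `AW` by `g` -/
theorem opp_group (w : WG T p Γ) (b : WB T Γ) {g : Equiv.Perm (W K)} (hg : g ∈ Γ) (r : Gr T g 0) :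
    ∃ s ρ : K, T.σ s = -s ∧ (∀ x, s * x + ρ * T.σ x = 0 → x = 0) ∧ ∀ f, T.σ f = f →
      ∃ y ∈ Γ, ∀ γ x, y (γ, x) = (γ + f * (s * x + ρ * T.σ x), x) := by
  have g2 : ∀ x, (g (0, x)).2 = 0 := fun x => by
    obtain ⟨y, hy⟩ := (r _).1 ⟨x, rfl⟩
    simp [hy]
  have gi : ∀ γ, (g⁻¹ (γ, 0)).1 = 0 := fun γ => by
    obtain ⟨x, hx⟩ := (r (γ, 0)).2 ⟨γ, by simp⟩
    simp [hx]
  have v : ∀ c γ x, (g * uW c * g⁻¹) (γ, x) = (γ + (g (0, -c * (g⁻¹ (0, x)).1)).1, x) := fun c γ x => by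
    have e1 : (g⁻¹ (γ, x)).1 = (g⁻¹ (0, x)).1 := by
      rw [show (γ, x) = (γ, 0) + (0, x) by simp, w.add _ (inv_mem hg), Prod.fst_add, gi, zero_add]
    have e2 : uW c (g⁻¹ (γ, x)) = g⁻¹ (γ, x) + (0, -c * (g⁻¹ (0, x)).1) := by
      rw [uW_apply, ← e1]; exact Prod.ext (by simp) (by simp only [Prod.snd_add]; ring)
    rw [Equiv.Perm.mul_apply, Equiv.Perm.mul_apply, e2, w.add _ hg, ai]
    exact Prod.ext rfl (by simp [g2])
  have m : ∀ c, c + T.σ c = 0 → g * uW c * g⁻¹ ∈ Γ := fun c hc =>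
    mul_mem (mul_mem hg (w.le ⟨c, hc, rfl⟩)) (inv_mem hg)
  have me := m T.ep (by simp)
  obtain ⟨s, ρ, h⟩ := exists_lin (T := T) (fun x => (g (0, -T.ep * (g⁻¹ (0, x)).1)).1)
    (fun x y => by
      have := congrArg Prod.fst (w.add _ me (0, x) (0, y))
      simpa only [Prod.mk_add_mk, v, zero_add, add_zero] using this)
    (fun f x hf => by
      obtain ⟨f', -, h⟩ := b.sem _ me f hf
      have h1 := congrArg Prod.snd (h (0, 1))
      simp only [Prod.smul_mk, smul_eq_mul, v, mul_one] at h1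
      have h2 := congrArg Prod.fst (h (0, x))
      simpa only [Prod.smul_mk, smul_eq_mul, v, mul_zero, zero_add, ← h1] using h2)
  refine ⟨s, ρ, ?_, fun x hx => ?_, fun f hf => ?_⟩
  · have := w.perp _ me (0, T.om) (0, 1) (by simp [Perp, hm])
    simp only [v, h, Perp, hm, zero_add, map_add, map_mul, map_one, T.inv] at this
    refine eq_neg_of_add_eq_zero_right (mul_right_cancel₀ T.ep_ne ?_)
    simp only [Hm.ep]; linear_combination this
  · rw [← h] at hx
    have e1 : g (0, -T.ep * (g⁻¹ (0, x)).1) = g 0 := by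
      rw [map_zero' w hg]; exact Prod.ext hx (g2 _)
    have e2 : (g⁻¹ (0, x)).1 = 0 := by
      simpa [T.ep_ne] using congrArg Prod.snd (g.injective e1)
    exact snd_zero r e2
  · obtain ⟨f', hf', k⟩ := b.sem _ (inv_mem hg) f hf
    refine ⟨_, m (f' * T.ep) (by simp [hf']), fun γ x => ?_⟩
    rw [v, ← h]
    have := congrArg g (k (g (0, -T.ep * (g⁻¹ (0, x)).1)))
    rw [ai, ia, Prod.smul_mk f', smul_zero, smul_eq_mul] at this
    rw [show -(f' * T.ep) * (g⁻¹ (0, x)).1 = f' * (-T.ep * (g⁻¹ (0, x)).1) by ring, ← this]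
    rfl

theorem rho_zero (w : WG T p Γ) (b : WB T Γ) (o : Opp T Γ) (big : Big T) (sem : SemD T Γ)
    {g : Equiv.Perm (W K)} (hg : g ∈ Γ) (r : Gr T g 0) {s ρ : K} (hs : T.σ s = -s)
    (inj : ∀ x, s * x + ρ * T.σ x = 0 → x = 0) (hy : ∀ f, T.σ f = f →
      ∃ y ∈ Γ, ∀ γ x, y (γ, x) = (γ + f * (s * x + ρ * T.σ x), x)) : ρ = 0 := by
  by_contra hρ
  have he := T.ep_ne
  have hx : ∀ a, T.σ a = a → uW (-(a * T.ep)) ∈ Γ := fun a ha => w.le ⟨_, by simp [ha], rfl⟩
  obtain ⟨y1, hy1, e1⟩ := hy 1 (map_one _)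
  have inj2 : ∀ a x, T.σ a = a → x + a * T.ep * (s * x + ρ * T.σ x) = 0 → x = 0 := fun a x ha h => by
    by_contra hx0
    have n : g⁻¹ * uW (-(a * T.ep)) * y1 ∈ NW T := by
      by_contra n
      refine o _ (mul_mem (mul_mem (inv_mem hg) (hx a ha)) hy1) n x hx0 ?_
      obtain ⟨z, hz⟩ := (r (s * x + ρ * T.σ x, 0)).2 ⟨s * x + ρ * T.σ x, by simp⟩
      have : uW (-(a * T.ep)) (y1 (0, x)) = g (0, z) := by
        rw [← hz, e1, uW_apply]; exact Prod.ext (by simp) (by linear_combination h)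
      simp [this]
    have k : ∀ v, (1 + a * T.ep * s) * v + a * T.ep * ρ * T.σ v = 0 := fun v => by
      have hz := snd_zero r (nor_AW T n v)
      simp only [e1, uW_apply] at hz
      linear_combination hz
    obtain ⟨k1, k2⟩ := lin_zero k
    have : a = 0 := by simpa [he, hρ] using k2
    simp [this] at k1
  obtain ⟨P, hP, P0, P1, P2⟩ := big 0 (-(1 + T.ep * s)⁻¹)
    (-(1 + 2 * (T.ep * s) + ((T.ep * s) ^ 2 + T.ep ^ 2 * (ρ * T.σ ρ)))⁻¹)
  obtain ⟨c, hc⟩ : ∃ c, c = 1 + P * (1 + 2 * (T.ep * s) + ((T.ep * s) ^ 2 + T.ep ^ 2 * (ρ * T.σ ρ))) :=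
    ⟨_, rfl⟩
  obtain ⟨k, hk⟩ : ∃ k, k = 1 + P * (1 + T.ep * s) := ⟨_, rfl⟩
  obtain ⟨D, hD⟩ : ∃ D, D = k ^ 2 + P ^ 2 * T.ep ^ 2 * (ρ * T.σ ρ) := ⟨_, rfl⟩
  have c0 : c ≠ 0 := hc ▸ one_add_ne P2
  have k0 : k ≠ 0 := hk ▸ one_add_ne P1
  have sc : T.σ c = c := by
    simp only [hc, map_add, map_mul, map_pow, map_one, map_ofNat, hP, hs, T.σ_ep, T.inv]; ring
  have sk : T.σ k = k := by simp only [hk, map_add, map_mul, map_one, hP, hs, T.σ_ep]; ring
  have sD : T.σ D = D := by simp only [hD, map_add, map_mul, map_pow, hP, sk, T.σ_ep, T.inv]; ring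
  have D0 : D ≠ 0 := fun h0 => by
    have key : ∀ v, k * v + -(P * T.ep * ρ) * T.σ v = 0 := fun v => by
      have e : (1 + P) * (k * v + -(P * T.ep * ρ) * T.σ v) + P * T.ep *
          (s * (k * v + -(P * T.ep * ρ) * T.σ v) + ρ * T.σ (k * v + -(P * T.ep * ρ) * T.σ v)) = 0 := by
        simp only [map_add, map_mul, map_neg, sk, hP, T.σ_ep, T.inv]
        linear_combination v * h0 - v * hD - (k * v - P * T.ep * ρ * T.σ v) * hk
      by_cases h1 : 1 + P = 0
      · rw [h1, zero_mul, zero_add] at e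
        exact inj _ ((mul_eq_zero.1 e).resolve_left (mul_ne_zero P0 he))
      · refine inj2 (P / (1 + P)) _ (by simp [hP]) ?_
        generalize k * v + -(P * T.ep * ρ) * T.σ v = z at e ⊢
        field_simp
        linear_combination e
    exact k0 (lin_zero key).1
  obtain ⟨y2, hy2, e2⟩ := hy P hP
  obtain ⟨y3, hy3, e3⟩ := hy (-(D / c)) (by simp [sD, sc])
  have hh := mul_mem (mul_mem (mul_mem (mul_mem hy3 (hx (-D⁻¹) (by simp [sD]))) hy2) (hx 1 (map_one _))) hy1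
  have ev : ∀ x, (y3 * uW (-(-D⁻¹ * T.ep)) * y2 * uW (-(1 * T.ep)) * y1) (0, x) =
      (0, c / D * (k * x + P * T.ep * ρ * T.σ x)) := fun x => by
    obtain ⟨M, hM⟩ : ∃ M, M = k * x + P * T.ep * ρ * T.σ x := ⟨_, rfl⟩
    have a1 : (y2 * uW (-(1 * T.ep)) * y1) (0, x) =
        (s * M + ρ * T.σ M, x + T.ep * (s * x + ρ * T.σ x)) := by
      simp only [Equiv.Perm.mul_apply, e1, e2, uW_apply, hM, hk, map_add, map_sub, map_mul, map_neg,
        map_zero, map_one, hP, hs, T.σ_ep, T.inv]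
      exact Prod.ext (by ring) (by ring)
    have a2 : D * (x + T.ep * (s * x + ρ * T.σ x)) - T.ep * (s * M + ρ * T.σ M) = c * M := by
      simp only [hM, hD, hc, hk, map_add, map_mul, map_one, hP, hs, T.σ_ep, T.inv]; ring
    have a3 : uW (-(-D⁻¹ * T.ep)) (s * M + ρ * T.σ M, x + T.ep * (s * x + ρ * T.σ x)) =
        (s * M + ρ * T.σ M, c / D * M) := by
      rw [uW_apply]; refine Prod.ext rfl ?_
      field_simp
      linear_combination a2
    rw [mul_assoc, mul_assoc, Equiv.Perm.mul_apply, ← mul_assoc, a1, Equiv.Perm.mul_apply, a3, e3, ← hM]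
    refine Prod.ext ?_ rfl
    simp only [map_mul, map_div₀, sc, sD]
    field_simp
    ring
  obtain ⟨φ, hφ⟩ := sem _ hh (b.s0 _ hh fun x => by rw [ev])
  obtain ⟨q1, q2⟩ := lin_zero (T := T) (a := k * (T.om - φ T.om))
    (b := P * T.ep * ρ * (T.σ T.om - φ T.om)) fun v => by
      have := congrArg Prod.snd (hφ T.om v)
      simp only [ev, Prod.smul_mk, smul_eq_mul, map_mul] at this
      refine mul_left_cancel₀ (div_ne_zero c0 D0) ?_
      linear_combination this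
  have q3 := sub_eq_zero.1 ((mul_eq_zero.1 q1).resolve_left k0)
  have q4 := sub_eq_zero.1 ((mul_eq_zero.1 q2).resolve_left (mul_ne_zero (mul_ne_zero P0 he) hρ))
  exact T.om_ne (q4.trans q3.symm)

theorem w4 : W4Stmt T p := by
  rintro Γ w b o alt ⟨g, hg, r⟩ c hc
  obtain ⟨s, ρ, hs, inj, hy⟩ := opp_group w b hg r
  have ρ0 : ρ = 0 := by
    rcases alt with alt | ⟨big, sem⟩
    · obtain ⟨y, hy1, e⟩ := hy 1 (map_one _)
      obtain ⟨_, ⟨d, -, rfl⟩, k⟩ := alt y hy1 fun n => one_ne_zero (inj 1 (by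
        simpa only [e, zero_add, one_mul] using nor_AW T n 1))
      obtain ⟨k1, k2⟩ := lin_zero (T := T) (a := 1 - d * s) (b := -(d * ρ)) fun v => by
        obtain ⟨z, hz⟩ := (k _).1 ⟨v, rfl⟩
        simp only [Equiv.Perm.mul_apply, e, uW_apply, Prod.mk.injEq] at hz
        linear_combination hz.2
      have d0 : d ≠ 0 := by rintro rfl; simp at k1
      simpa [d0] using k2
    · exact rho_zero w b o big sem hg r hs inj hy
  subst ρ0
  have s0 : s ≠ 0 := by rintro rfl; exact one_ne_zero (inj 1 (by simp))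
  have c0 := c.ne_zero
  have sc : T.σ c = -c := by linear_combination hc
  obtain ⟨y, hy1, e⟩ := hy ((c : K) * s)⁻¹ (by simp [sc, hs])
  have u := w.le (⟨c, hc, rfl⟩ : uW (c : K) ∈ AW T)
  have : nW c = uW (c : K) * y * uW (c : K) := Equiv.ext fun x => by
    simp only [Equiv.Perm.mul_apply, uW_apply, e, nW_apply]
    refine Prod.ext ?_ ?_ <;> simp only <;> field_simp <;> ring
  exact this ▸ mul_mem (mul_mem u hy1) u

end Cfsg.Agent.H10.U4W
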