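import Cfsg.Agent.H53.UwDefs

/-! Project UW, piece CENT: every centralizer contains a subgroup on which the Weil character sums to zero. -/

set_option autoImplicit false

namespace Cfsg.Agent.H10.UwC

open Module Cfsg.Agent.H31 Cfsg.Agent.H53.Uw

universe u

section

variable {E V : Type u} [Field E] [AddCommGroup V] [Module E V] {σ : E →+* E}
  {B : V →ₛₗ[σ] V →ₗ[E] E} [FiniteDimensional E V]

theorem ext_perp (h : IsHerm B) {W : Submodule E V} (hW : NondegOn B W) {g k : isom B}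
    (h1 : ∀ x ∈ W, g.1 x = k.1 x) (h2 : ∀ x ∈ perp B W, g.1 x = k.1 x) : g = k :=
  isom_ext fun x => by
    obtain ⟨a, ha, b, hb, rfl⟩ := h.exists_add_perp hW x
    rw [map_add, map_add, h1 a ha, h2 b hb]

/-- extension by the identity on the perpendicular space -/
theorem exists_hom (h : IsHerm B) {W : Submodule E V} (hW : NondegOn B W) :
    ∃ ι : isom (restr B W) →* isom B, Function.Injective ι ∧
      (∀ a (x : W), (ι a).1 x = a.1 x) ∧ ∀ a, ∀ x ∈ perp B W, (ι a).1 x = x := by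
  have ex : ∀ a : isom (restr B W), ∃ g : isom B, (∀ x : W, g.1 x = a.1 x) ∧
      ∀ x ∈ perp B W, g.1 x = x := fun a => by
    obtain ⟨g, hg, h1, h2, -⟩ := h.exists_isom_extend hW a.2
    exact ⟨⟨g, hg⟩, h1, h2⟩
  choose f f1 f2 using ex
  refine ⟨MonoidHom.mk' f fun a b => ext_perp h hW (fun x hx => ?_) fun x hx => ?_,
    fun a b e => isom_ext fun x => Subtype.ext ?_, f1, f2⟩
  · rw [mul_ap, f1 _ ⟨x, hx⟩, f1 b ⟨x, hx⟩, f1 a]; rfl
  · rw [mul_ap, f2 _ x hx, f2 b x hx, f2 a x hx]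
  · rw [← f1, ← f1]
    exact congrArg (fun g : isom B => g.1 x) e

theorem finrank_fx (h : IsHerm B) {W : Submodule E V} (hW : NondegOn B W) (a : isom (restr B W))
    (g : isom B) (h1 : ∀ x : W, g.1 x = a.1 x) (h2 : ∀ x ∈ perp B W, g.1 x = x) :
    finrank E (fx g.1) = finrank E (fx a.1) + finrank E (perp B W) := by
  have hd := (h.isCompl_perp hW).disjoint
  have e : fx g.1 = (fx a.1).map W.subtype ⊔ perp B W := by
    apply le_antisymm
    · intro x hx
      obtain ⟨y, hy, z, hz, rfl⟩ := h.exists_add_perp hW x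
      rw [mem_fx, map_add, h2 z hz, add_left_inj, h1 ⟨y, hy⟩] at hx
      exact Submodule.add_mem_sup ⟨⟨y, hy⟩, mem_fx.2 (Subtype.ext hx), rfl⟩ hz
    · refine sup_le ?_ fun x hx => mem_fx.2 (h2 x hx)
      rintro _ ⟨y, hy, rfl⟩
      exact mem_fx.2 ((h1 y).trans (congrArg Subtype.val (mem_fx.1 hy)))
  have k := Submodule.finrank_sup_add_finrank_inf_eq ((fx a.1).map W.subtype) (perp B W)
  rw [(hd.mono_left (Submodule.map_subtype_le _ _)).eq_bot, finrank_bot, add_zero,
    Submodule.finrank_map_subtype_eq] at k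
  rw [e, k]

theorem step [Finite V] (h : IsHerm B) (q : ℕ) (g : isom B) {W : Submodule E V} (hW : NondegOn B W)
    (hg : ∀ w ∈ W, g.1 w ∈ W)
    (ih : ∀ g : isom (restr B W), ∃ H : Subgroup (isom (restr B W)),
      H ≤ Subgroup.centralizer ({g} : Set (isom (restr B W))) ∧ ∑ᶠ k : H, om (restr B W) q k = 0) :
    ∃ H : Subgroup (isom B), H ≤ Subgroup.centralizer ({g} : Set (isom B)) ∧
      ∑ᶠ k : H, om B q k = 0 := by
  have hs : g.1 ∈ stab W := mem_stab_of_le hg
  have hp : g.1 ∈ stab (perp B W) := mem_stab_perp g.2 hs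
  obtain ⟨ι, inj, i1, i2⟩ := exists_hom h hW
  let a : isom (restr B W) := ⟨restrictStab W ⟨g.1, hs⟩, fun x y => g.2 x y⟩
  have ea : ∀ x : W, (a.1 x : V) = g.1 x := fun _ => rfl
  obtain ⟨H, h1, h2⟩ := ih a
  refine ⟨H.map ι, ?_, ?_⟩
  · rintro _ ⟨k, hk, rfl⟩
    rw [Subgroup.mem_centralizer_singleton_iff]
    have e := Subgroup.mem_centralizer_singleton_iff.1 (h1 hk)
    refine ext_perp h hW (fun x hx => ?_) fun x hx => ?_
    · rw [mul_ap, mul_ap, i1 k ⟨x, hx⟩, ← ea, ← ea ⟨x, hx⟩, i1, ← mul_ap, ← mul_ap, e]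
    · rw [mul_ap, mul_ap, i2 k x hx, i2 k _ ((hp x).1 hx)]
  · rw [← finsum_comp_equiv (H.equivMapOfInjective ι inj).toEquiv]
    have e : ∀ k : H, om B q ((H.equivMapOfInjective ι inj).toEquiv k) =
        ((-1) ^ finrank E (perp B W) * (-(q : ℂ)) ^ finrank E (perp B W)) * om (restr B W) q k :=
      fun k => by
        change om B q (ι k) = _
        rw [om, om, finrank_fx h hW k (ι k) (i1 k) (i2 k), ← h.finrank_add_finrank_perp W, pow_add,
          pow_add]
        ring
    rw [finsum_congr e, ← mul_finsum' _ _ (Set.toFinite _), h2, mul_zero]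

end

theorem cent (cyc : CycStmt.{u}) (sum : SumStmt.{u}) : CentStmt.{u} := by
  intro E V _ _ _ _ _ σ B q hS ho
  obtain ⟨n, hn⟩ : ∃ n, finrank E V = n := ⟨_, rfl⟩
  induction n using Nat.strong_induction_on generalizing V with
  | _ n ih =>
    intro g
    have h := hS.herm
    by_cases hc : ∀ W : Submodule E V, (∀ w ∈ W, g.1 w ∈ W) → NondegOn B W → W = ⊥ ∨ W = ⊤
    · obtain ⟨f, k, v, h1, h2, h3⟩ := cyc E V σ B q hS ho g hc
      exact ⟨_, le_rfl, sum E V σ B q hS ho g f k v h1 h2 h3⟩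
    · push Not at hc
      obtain ⟨W, h1, h2, h3, h4⟩ := hc
      have key : ∀ W : Submodule E V, (∀ w ∈ W, g.1 w ∈ W) → NondegOn B W → finrank E W < n →
          Odd (finrank E W) → ∃ H : Subgroup (isom B),
            H ≤ Subgroup.centralizer ({g} : Set (isom B)) ∧ ∑ᶠ k : H, om B q k = 0 :=
        fun W k1 k2 k3 k4 => step h q g k2 k1
          (ih _ k3 W (restr B W) ⟨hS.card, hS.pow, h.isHerm_restr k2⟩ k4 rfl)
      have e := h.finrank_add_finrank_perp W
      have p1 : finrank E W ≠ 0 := fun e => h3 (Submodule.finrank_eq_zero.1 e)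
      have p2 : finrank E W < finrank E V := Submodule.finrank_lt h4
      by_cases o : Odd (finrank E W)
      · exact key W h1 h2 (by omega) o
      · refine key (perp B W) (fun w hw => (mem_stab_perp g.2 (mem_stab_of_le h1) w).1 hw)
          (h.nondegOn_perp h2) (by omega) ?_
        rw [Nat.odd_iff] at *
        omega

end Cfsg.Agent.H10.UwC
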