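import Cfsg.Agent.H42.VpDefs

/-! Project VP, piece F2. -/

set_option autoImplicit false

namespace Cfsg.Agent.H10.VpF2

open Subgroup Cfsg Cfsg.Agent.H42.Vp

universe u

theorem f2 : F2Stmt.{u} := by
  intro G _ _ p hp K nK cK ⟨j, hj⟩ K0 loc ⟨x, ⟨m, xm⟩, xc⟩ pZ
  have := Fact.mk hp
  have px : IsPGroup p (zpowers x) := by
    rintro ⟨_, i, rfl⟩
    exact ⟨m, Subtype.ext (by
      show (x ^ i) ^ p ^ m = 1
      rw [← zpow_natCast, ← zpow_mul, mul_comm, zpow_mul, zpow_natCast, xm, one_zpow])⟩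
  obtain ⟨P, hP⟩ := px.exists_le_sylow
  have ZP : center G ≤ P := IsPGroup.le_sylow_of_normal pZ P
  have dj : ∀ g ∈ K, g ∈ (P : Subgroup G) → g = 1 := fun g hK hg => by
    obtain ⟨n, hn⟩ := IsPGroup.iff_orderOf.1 P.isPGroup' ⟨g, hg⟩
    rw [← orderOf_coe] at hn
    have h1 : orderOf g ∣ Nat.card K := Subgroup.orderOf_dvd_natCard _ hK
    exact orderOf_eq_one_iff.1 (Nat.eq_one_of_dvd_coprimes (cK.pow_right n) h1 (dvd_of_eq hn))
  have KP : K ⊔ P = ⊤ := by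
    rw [← index_eq_one]
    have h1 : (K ⊔ P).index ∣ p ^ j := hj ▸ index_dvd_of_le le_sup_left
    have h2 : (K ⊔ P).index ∣ (P : Subgroup G).index := index_dvd_of_le le_sup_right
    exact Nat.eq_one_of_dvd_coprimes
      (((Nat.Prime.coprime_iff_not_dvd hp).2 P.not_dvd_index).pow_left j) h1 h2
  have back : ∀ g : G, QuotientGroup.mk' (center G) g ∈
      (P : Subgroup G).map (QuotientGroup.mk' (center G)) → g ∈ (P : Subgroup G) := fun g hg => by
    have : g ∈ ((P : Subgroup G).map (QuotientGroup.mk' (center G))).comap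
      (QuotientGroup.mk' (center G)) := hg
    rwa [comap_map_eq_self (by rw [QuotientGroup.ker_mk']; exact ZP)] at this
  refine ⟨(P : Subgroup G).map (QuotientGroup.mk' (center G)), ⟨fun e => xc ?_, fun e => K0 ?_,
    fun gb hg => ?_⟩, P.isPGroup'.map _⟩
  · exact (QuotientGroup.eq_one_iff x).1 (mem_bot.1 (e ▸ mem_map_of_mem _ (hP (mem_zpowers x))))
  · exact eq_bot_iff.2 fun k hk => dj k hk (back k (e ▸ mem_top _))
  obtain ⟨g, rfl⟩ := QuotientGroup.mk'_surjective _ gb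
  obtain ⟨k, hk, v, hv, rfl⟩ := mem_sup_of_normal_left.1 (show g ∈ K ⊔ P from KP ▸ mem_top g)
  have k1 : k ≠ 1 := fun e => hg (mem_map_of_mem _ (by rwa [e, one_mul]))
  refine eq_bot_iff.2 ?_
  rintro _ ⟨⟨a, ha, rfl⟩, h2⟩
  have h3 : (k * v)⁻¹ * a * (k * v) ∈ (P : Subgroup G) := back _ (by
    have := mem_pointwise_smul_iff_inv_smul_mem.1 h2
    rw [map_mul, map_mul, map_inv]
    simpa [MulAut.smul_def, mul_assoc] using this)
  have h4 : k⁻¹ * a * k * a⁻¹ ∈ (P : Subgroup G) := by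
    have := mul_mem (mul_mem (mul_mem hv h3) (inv_mem hv)) (inv_mem ha)
    rwa [show v * ((k * v)⁻¹ * a * (k * v)) * v⁻¹ * a⁻¹ = k⁻¹ * a * k * a⁻¹ by group] at this
  have h5 : k⁻¹ * a * k * a⁻¹ ∈ K := by
    have := mul_mem (inv_mem hk) (nK.conj_mem k hk a)
    rwa [show k⁻¹ * (a * k * a⁻¹) = k⁻¹ * a * k * a⁻¹ by group] at this
  have c : Commute a k := by
    have := dj _ h5 h4
    show a * k = k * a
    calc a * k = k * (k⁻¹ * a * k * a⁻¹) * a := by group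
      _ = k * a := by rw [this, mul_one]
  obtain ⟨n, hn⟩ := P.isPGroup' ⟨a, ha⟩
  exact mem_bot.2 ((QuotientGroup.eq_one_iff a).2
    (loc a ⟨n, congrArg Subtype.val hn⟩ k hk k1 c))

end Cfsg.Agent.H10.VpF2
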